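import Cfsg.Agent.SpAmalgam.Step

/-!
The downward induction and the universal property.
-/

set_option autoImplicit false
set_option linter.unusedSectionVars false

namespace Cfsg.Agent.SpAmalgam

open Matrix

variable {F : Type*} [Field F] {n : ℕ} {H : Type*} [Group H]

/-- An element of the stabiliser of the basis vectors below `a` fixing `e_a`, decomposed. -/
theorem exists_dec {a : Fin n} {g : Sp n F} (hg : g ∈ tailSub (a : ℕ))
    (he : act g (ve a) = ve a) :
    ∃ u t, InTail ((a : ℕ) + 1) u ∧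
      u = -(act g (vf a) - vf a - (act g (vf a)) (Sum.inl a) • ve a) ∧
      (eich (ve a) u t)⁻¹ * g ∈ tailSub ((a : ℕ) + 1) := by
  set v := act g (vf a) with hv
  set α := v (Sum.inl a) with hα
  set u := -(v - vf a - α • ve a) with hu
  have hvt : InTail (a : ℕ) v := (inTail_vf le_rfl).act hg
  have hva : v (Sum.inr a) = 1 := by
    have := om_act g (ve a) (vf a)
    rw [he, ← hv, om_ve, om_ve, neg_inj] at this
    simpa using this
  have hut : InTail ((a : ℕ) + 1) u := by
    intro l hl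
    by_cases hla : l = a
    · subst hla; simp [hu, hva, ← hα]
    · have := hvt l (by have := Fin.val_ne_of_ne hla; omega)
      simp [hu, this.1, this.2, hla]
  have heu : om (ve a) u = 0 := (hut.om_ve (Nat.lt_succ_self _)).1
  refine ⟨u, -α, hut, rfl, ?_⟩
  have hEf : act (eich (ve a) u (-α)) (vf a) = v := by
    rw [act_eich heu, (hut.om_ve (Nat.lt_succ_self _)).2.2.2]
    simp [hu]
    abel
  rintro w ⟨l, hl, hw⟩
  rw [act_mul]
  rcases lt_or_eq_of_le (Nat.lt_succ_iff.1 hl) with hlt | heq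
  · rw [hg w ⟨l, hlt, hw⟩]
    have hm : eich (ve a) u (-α) ∈ tailSub (F := F) (a : ℕ) :=
      eich_mem_fixer heu _ (by
        rintro z ⟨m, hm, rfl | rfl⟩
        · exact ⟨((inTail_ve le_rfl).om_ve hm).2.2.1, (hut.om_ve (Nat.lt_succ_of_lt hm)).2.2.1⟩
        · exact ⟨((inTail_ve le_rfl).om_ve hm).2.2.2, (hut.om_ve (Nat.lt_succ_of_lt hm)).2.2.2⟩)
    exact inv_mem hm w ⟨l, hlt, hw⟩
  · obtain rfl : l = a := Fin.ext heq
    rcases hw with rfl | rfl
    · rw [he]
      have h := act_inv_act (eich (ve l) u (-α)) (ve l)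
      rwa [show act (eich (ve l) u (-α)) (ve l) = ve l by
        rw [act_eich heu, (hut.om_ve hl).2.2.1]; simp] at h
    · rw [← hv, ← hEf, act_inv_act]

namespace Amalgam

variable (D : Amalgam n F H) {a : Fin n} {hL : D.Level ((a : ℕ) + 1)}
  {hF : ∃ c : F, c ≠ 0 ∧ c ≠ 1}

theorem act_borel {b : Sp n F × H} (hb : b ∈ D.borel hL hF) :
    ∃ c : F, c ≠ 0 ∧ act b.1 (ve a) = c • ve a := by
  obtain ⟨k, hk, u, hu, t, c, hc, rfl⟩ := hb
  refine ⟨c, hc, ?_⟩
  rw [Prod.fst_mul, Prod.fst_mul, act_mul, act_mul, D.act_hh_e a hc, act_smul, D.QQ_fst hL hF hu,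
    act_eich (hu.om_ve (Nat.lt_succ_self _)).1, (hu.om_ve (Nat.lt_succ_self _)).2.2.1, om_self]
  simp [act_smul, D.act_gam_e hk]

theorem mem_closure_of_A {x : Sp n F × H} (hx : x ∈ D.A a) :
    x ∈ Subgroup.closure ((D.borel hL hF : Set (Sp n F × H)) ∪ {D.ww a}) := by
  set T := Subgroup.closure ((D.borel hL hF : Set (Sp n F × H)) ∪ {D.ww a})
  have hw : D.ww a ∈ T := Subgroup.subset_closure (Or.inr rfl)
  have hb : ∀ b ∈ D.borel hL hF, b ∈ T := fun b h => Subgroup.subset_closure (Or.inl h)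
  have hfix : ∀ y ∈ D.A a, act y.1 (ve a) = ve a → y ∈ T := by
    intro y hy he
    set v := act y.1 (vf a)
    have hv : InPlane a v := act_planeSub (D.fst_mem_A hy) (inPlane_vf a)
    have hva : v (Sum.inr a) = 1 := by
      have := om_act y.1 (ve a) (vf a)
      rw [he, om_ve, om_ve, neg_inj] at this
      simpa using this
    have : y = D.zz a (-v (Sum.inl a)) := by
      refine D.eq_A a hy (D.zz_mem a _) (by rw [he, D.act_zz_e]) ?_
      rw [D.act_zz_f, show act y.1 (vf a) = v from rfl]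
      conv_lhs => rw [inPlane_decomp hv, hva]
      module
    rw [this]
    exact hb _ (D.zz_mem_borel hL hF _)
  set v := act x.1 (ve a) with hv
  have hvp : InPlane a v := act_planeSub (D.fst_mem_A hx) (inPlane_ve a)
  set α := v (Sum.inl a)
  set β := v (Sum.inr a)
  have hdec := inPlane_decomp hvp
  obtain ⟨c, hc, hcT, hce⟩ : ∃ c ∈ D.A a, c ∈ T ∧ act c.1 (ve a) = v := by
    by_cases hβ : β = 0
    · have hα : α ≠ 0 := fun h => by
        have hz : v = 0 := by rw [hdec, show v (Sum.inl a) = 0 from h,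
          show v (Sum.inr a) = 0 from hβ]; simp
        exact ve_ne_zero (F := F) a (by rw [← act_inv_act x.1 (ve a), ← hv, hz, act_zero])
      refine ⟨D.hh a α, D.hh_mem a α, hb _ (D.hh_mem_borel hL hF hα), ?_⟩
      rw [D.act_hh_e a hα, hdec, show v (Sum.inr a) = 0 from hβ]; simp [α]
    · refine ⟨D.zz a (-α / β) * D.ww a * D.hh a β,
        mul_mem (mul_mem (D.zz_mem a _) (D.ww_mem a)) (D.hh_mem a _),
        mul_mem (mul_mem (hb _ (D.zz_mem_borel hL hF _)) hw) (hb _ (D.hh_mem_borel hL hF hβ)), ?_⟩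
      rw [Prod.fst_mul, Prod.fst_mul, act_mul, act_mul, D.act_hh_e a hβ, act_smul, act_smul,
        D.act_ww_e, D.act_zz_f, smul_sub, smul_smul, mul_div_cancel₀ _ hβ, hdec]
      simp [α, β]
      abel
  have := hfix (c⁻¹ * x) (mul_mem (inv_mem hc) hx) (by
    rw [Prod.fst_mul, Prod.fst_inv, act_mul, ← hv, ← hce, act_inv_act])
  simpa using mul_mem hcT this

theorem mem_borel_of_B (ha : (a : ℕ) + 1 < n) {x : Sp n F × H} (hx : x ∈ D.B a) :
    x ∈ D.borel hL hF := by
  set b : Fin n := ⟨(a : ℕ) + 1, ha⟩ with hbdef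
  have hb : (b : ℕ) = (a : ℕ) + 1 := rfl
  have hg := D.fst_mem_B ha hx
  have hgt : x.1 ∈ tailSub (F := F) (a : ℕ) := D.fst_mem_tail (D.B_le_Gam le_rfl ha hx)
  have hge : ∀ l, act x.1 (ve l) = ve l := fun l => hg _ (Or.inl ⟨l, rfl⟩)
  obtain ⟨u, t, hu, hudef, hmem⟩ := exists_dec hgt (hge a)
  -- `u` is a multiple of `e_b`
  have hcoord : ∀ (w : Vec n F) (l : Fin n),
      (act x.1 w) (Sum.inr l) = w (Sum.inr l) ∧
      ((l : ℕ) ≠ a → (l : ℕ) ≠ (a : ℕ) + 1 → (act x.1 w) (Sum.inl l) = w (Sum.inl l)) := by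
    intro w l
    constructor
    · have := om_act x.1 (ve l) w
      rw [hge l, om_ve, om_ve, neg_inj] at this
      exact this
    · intro h1 h2
      have := om_act x.1 (vf l) w
      rw [hg _ (Or.inr ⟨l, h1, h2, rfl⟩), om_vf, om_vf] at this
      exact this
  obtain ⟨s, rfl⟩ : ∃ s, u = s • ve b := by
    refine ⟨u (Sum.inl b), funext fun c => ?_⟩
    rcases c with l | l
    · by_cases hlb : l = b
      · rw [hlb, Pi.smul_apply, ve_inl, if_pos rfl, smul_eq_mul, mul_one]
      · rw [Pi.smul_apply, ve_inl, if_neg hlb, smul_zero]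
        by_cases hla : l = a
        · exact (hu l (by rw [hla]; exact Nat.lt_succ_self _)).1
        · have := (hcoord (vf a) l).2 (Fin.val_ne_of_ne hla) (hb ▸ Fin.val_ne_of_ne hlb)
          rw [hudef]
          simp [this, hla]
    · have := (hcoord (vf a) l).1
      rw [Pi.smul_apply, ve_inr, smul_zero, hudef]
      simp [this]
  set k := (D.QQ a (s • ve b) t)⁻¹ * x with hk
  have hQB : D.QQ a (s • ve b) t ∈ D.B a := mul_mem (D.qq_line hL hb s) (D.zz_mem_B hL ha t)
  have hkB : k ∈ D.B a := mul_mem (inv_mem hQB) hx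
  have hk1 : k.1 ∈ tailSub ((a : ℕ) + 1) := by
    rw [hk, Prod.fst_mul, Prod.fst_inv, D.QQ_fst hL hF hu]; exact hmem
  have hku := D.fst_mem_B ha hkB
  set w := act k.1 (vf b)
  have hk2 : k.1 = eich (ve b) 0 (-w (Sum.inl b)) := by
    have hne : a ≠ b := fun h => by rw [hbdef] at h; exact absurd (congrArg Fin.val h) (by simp)
    refine eq_of_act (fun l => ?_) fun l => ?_ <;> rw [act_eich (om_zero_right _)]
    · rw [hku _ (Or.inl ⟨l, rfl⟩)]; simp
    · by_cases hlb : l = b
      · subst hlb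
        funext c
        rcases c with m | m
        · by_cases hmb : m = b
          · subst hmb; simp [w]
          · have h1 : w (Sum.inl m) = 0 := by
              have := om_act k.1 (vf m) (vf b)
              by_cases hma : m = a
              · subst hma
                rw [hk1 _ ⟨m, Nat.lt_succ_self _, Or.inr rfl⟩, om_vf, om_vf] at this
                simpa using this
              · rw [hku _ (Or.inr ⟨m, Fin.val_ne_of_ne hma, hb ▸ Fin.val_ne_of_ne hmb, rfl⟩),
                  om_vf, om_vf] at this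
                simpa using this
            show w (Sum.inl m) = _
            simp [h1, hmb]
        · have := om_act k.1 (ve m) (vf b)
          rw [hku _ (Or.inl ⟨m, rfl⟩), om_ve, om_ve, neg_inj] at this
          show w (Sum.inr m) = _
          simp [w, this]
      · by_cases hla : l = a
        · subst hla
          rw [hk1 _ ⟨l, Nat.lt_succ_self _, Or.inr rfl⟩]
          simp [Ne.symm hlb, hlb]
        · rw [hku _ (Or.inr ⟨l, Fin.val_ne_of_ne hla, hb ▸ Fin.val_ne_of_ne hlb, rfl⟩)]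
          simp [Ne.symm hlb, hlb]
  have hkz : k = D.zz b (-w (Sum.inl b)) := (D.okAB a b ha).eq (Subgroup.mem_sup_left hkB)
    (Subgroup.mem_sup_right (D.zz_mem b _)) (by rw [hk2, D.zz_fst])
  have : x = D.QQ a (s • ve b) t * k := by rw [hk, mul_inv_cancel_left]
  rw [this]
  exact mul_mem (D.QQ_mem_borel hL hF hu t)
    (D.gam_mem_borel hL hF (hkz ▸ D.A_le_Gam hb.ge (D.zz_mem b _)))

theorem gam_inU {x : Sp n F × H} (hx : x ∈ D.Gam (a : ℕ)) : D.InU hL hF x := by
  set S := ((D.borel hL hF : Set (Sp n F × H)) ∪ {D.ww a})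
  have hle : D.Gam (a : ℕ) ≤ Subgroup.closure S := by
    refine D.Gam_le (fun j hj y hy => ?_) fun i hi hi' y hy => ?_
    · by_cases h : j = a
      · subst h; exact D.mem_closure_of_A hy
      · exact Subgroup.subset_closure (Or.inl (D.gam_mem_borel hL hF (D.A_le_Gam (by
          have := Fin.val_ne_of_ne h; omega) hy)))
    · by_cases h : i = a
      · subst h; exact Subgroup.subset_closure (Or.inl (D.mem_borel_of_B hi' hy))
      · exact Subgroup.subset_closure (Or.inl (D.gam_mem_borel hL hF (D.B_le_Gam (by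
          have := Fin.val_ne_of_ne h; omega) hi' hy)))
  have hx' := hle hx
  refine Subgroup.closure_induction_left (p := fun y _ => D.InU hL hF y) ?_ ?_ ?_ hx'
  · exact Or.inl ⟨1, one_mem _, 1, one_mem _, 0, inTail_bot, by
      rw [D.RR_zero_left, show D.yy a (0 : F) = 1 from
        D.okA a _ (D.yy_mem a 0) (by rw [D.yy_fst, eich_zero]), one_mul, mul_one]⟩
  · intro s hs y _ hy
    rcases hs with hs | hs
    · simpa using InU.mul D hy hs (one_mem _)
    · rw [Set.mem_singleton_iff.1 hs]; exact D.ww_mul_inU hy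
  · intro s hs y _ hy
    rcases hs with hs | hs
    · simpa using InU.mul D hy (inv_mem hs) (one_mem _)
    · rw [Set.mem_singleton_iff.1 hs]
      have e : (D.ww a)⁻¹ * y = (D.hh a (-1))⁻¹ * (D.ww a * y) * 1 := by
        rw [← D.ww_mul_ww]; group
      rw [e]
      exact InU.mul D (D.ww_mul_inU hy)
        (inv_mem (D.hh_mem_borel hL hF (neg_ne_zero.2 one_ne_zero))) (one_mem _)

theorem stab_dec {x : Sp n F × H} (hx : x ∈ D.Gam (a : ℕ)) (he : act x.1 (ve a) = ve a)
    (hL : D.Level ((a : ℕ) + 1)) (hF : ∃ c : F, c ≠ 0 ∧ c ≠ 1) :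
    ∃ k ∈ D.Gam ((a : ℕ) + 1), ∃ u, InTail ((a : ℕ) + 1) u ∧ ∃ t, x = k * D.QQ a u t := by
  have hb : x ∈ D.borel hL hF := by
    rcases D.gam_inU (hL := hL) (hF := hF) hx with
      ⟨b₁, h₁, b₂, h₂, v, hv, rfl⟩ | ⟨b₁, h₁, b₂, h₂, rfl⟩
    · obtain ⟨c₂, hc₂, e₂⟩ := D.act_borel h₂
      obtain ⟨c₁, hc₁, e₁⟩ := D.act_borel (inv_mem h₁)
      have hR : act (D.RR a v 0).1 (ve a) = ve a + v := by
        rw [D.RR_fst hL hF hv, act_eich (hv.om_ve (Nat.lt_succ_self _)).2.1,
          (hv.om_ve (Nat.lt_succ_self _)).2.2.1]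
        simp
      rw [Prod.fst_mul, Prod.fst_mul, act_mul, act_mul, e₂, act_smul, hR] at he
      have h' := congrArg (act b₁.1⁻¹) he
      rw [act_inv_act, ← Prod.fst_inv, e₁] at h'
      have hv0 : v = 0 := by
        funext c
        rcases c with l | l
        · by_cases hl : l = a
          · subst hl; exact (hv l (Nat.lt_succ_self _)).1
          · have := congrFun h' (Sum.inl l)
            simpa [hl, hc₂] using this
        · have := congrFun h' (Sum.inr l)
          simpa [hc₂] using this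
      rw [hv0, D.RR_zero_left, show D.yy a (0 : F) = 1 from
        D.okA a _ (D.yy_mem a 0) (by rw [D.yy_fst, eich_zero]), mul_one]
      exact mul_mem h₁ h₂
    · exfalso
      obtain ⟨c₂, hc₂, e₂⟩ := D.act_borel h₂
      obtain ⟨c₁, hc₁, e₁⟩ := D.act_borel (inv_mem h₁)
      rw [Prod.fst_mul, Prod.fst_mul, act_mul, act_mul, e₂, act_smul, D.act_ww_e] at he
      have h' := congrArg (act b₁.1⁻¹) he
      rw [act_inv_act, ← Prod.fst_inv, e₁] at h'
      have := congrFun h' (Sum.inr a)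
      simp at this
      exact hc₂ this
  obtain ⟨k, hk, u, hu, t, c, hc, rfl⟩ := hb
  have hc1 : c = 1 := by
    rw [Prod.fst_mul, Prod.fst_mul, act_mul, act_mul, D.act_hh_e a hc, act_smul, D.QQ_fst hL hF hu,
      act_eich (hu.om_ve (Nat.lt_succ_self _)).1, (hu.om_ve (Nat.lt_succ_self _)).2.2.1,
      om_self] at he
    simpa [act_smul, D.act_gam_e hk] using congrFun he (Sum.inl a)
  exact ⟨k, hk, u, hu, t, by rw [hc1, D.hh_one, mul_one]⟩

theorem level_step (hL : D.Level ((a : ℕ) + 1)) (hF : ∃ c : F, c ≠ 0 ∧ c ≠ 1) :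
    D.Level (a : ℕ) := by
  have hQ : ∀ {u : Vec n F}, InTail ((a : ℕ) + 1) u → ∀ t,
      D.QQ a u t ∈ D.Gam ((a : ℕ) + 1) ⊔ D.extra a := by
    intro u hu t
    refine mul_mem ?_ (Subgroup.mem_sup_right (D.zz_mem_extra a t))
    by_cases h0 : u = 0
    · rw [h0, D.qq_zero]; exact one_mem _
    obtain ⟨b, hb, x, hx, hxu⟩ := D.exists_rep hL hu h0
    rw [D.qq_spec hL hb hx hxu]
    exact mul_mem (mul_mem (Subgroup.mem_sup_left hx)
      (Subgroup.mem_sup_right (D.B_le_extra (hb ▸ b.2) (lift_mem _ _))))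
      (inv_mem (Subgroup.mem_sup_left hx))
  have hge : D.Gam ((a : ℕ) + 1) ⊔ D.extra a ≤ D.Gam (a : ℕ) := by
    refine sup_le (D.Gam_anti (Nat.le_succ _)) (sup_le (iSup_le fun h => D.B_le_Gam le_rfl h) ?_)
    rw [Subgroup.closure_le]
    rintro _ ⟨t, rfl⟩
    exact D.A_le_Gam le_rfl (D.zz_mem a t)
  refine ⟨fun x hx h1 => ?_, fun g hg => ?_, fun a' ha' x hx he => ?_⟩
  · obtain ⟨k, hk, u, hu, t, rfl⟩ := D.stab_dec hx (by rw [h1, act_one]) hL hF
    rw [Prod.fst_mul, D.QQ_fst hL hF hu] at h1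
    have heu := (hu.om_ve (Nat.lt_succ_self (a : ℕ))).1
    have hf : act (eich (ve a) u t) (vf a) = vf a := by
      rw [eq_inv_of_mul_eq_one_right h1, ← Prod.fst_inv]
      exact D.act_gam_f (inv_mem hk)
    rw [act_eich heu, (hu.om_ve (Nat.lt_succ_self _)).2.2.2] at hf
    have hu0 : u = 0 := by
      funext c
      rcases c with l | l
      · by_cases hl : l = a
        · subst hl; exact (hu l (Nat.lt_succ_self _)).1
        · simpa [hl] using congrFun hf (Sum.inl l)
      · simpa using congrFun hf (Sum.inr l)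
    have ht0 : t = 0 := by
      simpa [hu0] using congrFun hf (Sum.inl a)
    rw [hu0, ht0, eich_zero, mul_one] at h1
    rw [hu0, ht0, D.QQ_zero_left, D.zz_zero, mul_one]
    exact hL.fn k hk h1
  · -- transitivity, then the stabiliser
    set v := act g (ve a) with hv
    have hvt : InTail (a : ℕ) v := (inTail_ve le_rfl).act hg
    set α := v (Sum.inl a) with hα
    set β := v (Sum.inr a) with hβ
    set u := v - α • ve a - β • vf a with hu
    have hut : InTail ((a : ℕ) + 1) u := by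
      intro l hl
      by_cases hla : l = a
      · subst hla; simp [hu, ← hα, ← hβ]
      · have := hvt l (by have := Fin.val_ne_of_ne hla; omega)
        simp [hu, hla, this.1, this.2]
    have hdec : v = α • ve a + β • vf a + u := by rw [hu]; abel
    have hRe : ∀ {w : Vec n F}, InTail ((a : ℕ) + 1) w →
        act (D.RR a w 0).1 (ve a) = ve a + w := fun {w} hw => by
      rw [D.RR_fst hL hF hw, act_eich (hw.om_ve (Nat.lt_succ_self _)).2.1,
        (hw.om_ve (Nat.lt_succ_self _)).2.2.1]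
      simp
    have hR : ∀ {w : Vec n F}, InTail ((a : ℕ) + 1) w → D.RR a w 0 ∈ D.Gam (a : ℕ) :=
      fun {w} hw => by
        have hw' := D.A_le_Gam (le_refl (a : ℕ)) (D.ww_mem a)
        exact mul_mem (mul_mem hw' (hge (hQ hw 0))) (inv_mem hw')
    obtain ⟨x, hx, hxe⟩ : ∃ x ∈ D.Gam (a : ℕ), act x.1 (ve a) = v := by
      by_cases hb0 : β = 0
      · by_cases ha0 : α = 0
        · have hu0 : u ≠ 0 := fun h => by
            rw [hdec, ha0, hb0, h] at hv
            simp only [zero_smul, add_zero] at hv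
            exact ve_ne_zero (F := F) a (by rw [← act_inv_act g (ve a), ← hv, act_zero])
          obtain ⟨w, hwt, hw⟩ := exists_om_eq_one hut hu0
          refine ⟨D.QQ a w 0 * D.RR a u 0, mul_mem (hge (hQ hwt 0)) (hR hut), ?_⟩
          rw [Prod.fst_mul, act_mul, hRe hut, D.QQ_fst hL hF hwt,
            act_eich (hwt.om_ve (Nat.lt_succ_self _)).1, om_add_right, om_add_right, om_self,
            (hut.om_ve (Nat.lt_succ_self _)).1, (hwt.om_ve (Nat.lt_succ_self _)).2.2.1,
            om_swap u w, hw, hdec, ha0, hb0]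
          simp
        · refine ⟨D.RR a (α⁻¹ • u) 0 * D.hh a α, mul_mem (hR (hut.smul _))
            (D.A_le_Gam le_rfl (D.hh_mem a α)), ?_⟩
          rw [Prod.fst_mul, act_mul, D.act_hh_e a ha0, act_smul, hRe (hut.smul _), smul_add,
            smul_smul, mul_inv_cancel₀ ha0, one_smul, hdec, hb0]
          simp
      · refine ⟨D.QQ a ((-β⁻¹) • u) (-(α / β)) * D.ww a * D.hh a β,
          mul_mem (mul_mem (hge (hQ (hut.smul _) _)) (D.A_le_Gam le_rfl (D.ww_mem a)))
            (D.A_le_Gam le_rfl (D.hh_mem a β)), ?_⟩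
        rw [Prod.fst_mul, Prod.fst_mul, act_mul, act_mul, D.act_hh_e a hb0, act_smul, act_smul,
          D.act_ww_e, D.QQ_fst hL hF (hut.smul _),
          act_eich ((hut.smul _).om_ve (Nat.lt_succ_self _)).1,
          ((hut.smul _).om_ve (Nat.lt_succ_self _)).2.2.2, hdec]
        simp [smul_add, smul_smul, hb0, mul_div_cancel₀]
        abel
    have hh : act (x.1⁻¹ * g) (ve a) = ve a := by rw [act_mul, ← hv, ← hxe, act_inv_act]
    obtain ⟨u', t, hu't, -, hmem⟩ := exists_dec (mul_mem (inv_mem (D.fst_mem_tail hx)) hg) hh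
    obtain ⟨k, hk, hk1⟩ := hL.surj _ hmem
    refine ⟨x * D.QQ a u' t * k, mul_mem (mul_mem hx (hge (hQ hu't t)))
      (hge (Subgroup.mem_sup_left hk)), ?_⟩
    rw [Prod.fst_mul, Prod.fst_mul, D.QQ_fst hL hF hu't, hk1]
    group
  · obtain rfl : a' = a := Fin.ext ha'
    obtain ⟨k, hk, u, hu, t, rfl⟩ := D.stab_dec hx he hL hF
    exact mul_mem (Subgroup.mem_sup_left hk) (hQ hu t)

theorem level (hF : ∃ c : F, c ≠ 0 ∧ c ≠ 1) : ∀ j k : ℕ, k + j = n → D.Level k := by
  intro j
  induction j with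
  | zero =>
    intro k hk
    have hbot : D.Gam k ≤ ⊥ := D.Gam_le (fun i hi => absurd i.2 (by omega))
      fun i hi _ => absurd i.2 (by omega)
    refine ⟨fun x hx _ => Subgroup.mem_bot.1 (hbot hx), fun g hg => ⟨1, one_mem _, ?_⟩,
      fun a ha => absurd a.2 (by omega)⟩
    refine eq_of_act (fun i => ?_) (fun i => ?_) <;> rw [Prod.fst_one, act_one]
    · exact (hg _ ⟨i, by omega, Or.inl rfl⟩).symm
    · exact (hg _ ⟨i, by omega, Or.inr rfl⟩).symm
  | succ j ih =>
    intro k hk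
    exact D.level_step (a := ⟨k, by omega⟩) (ih (k + 1) (by omega)) hF

theorem tail_zero : (tailSub 0 : Subgroup (Sp n F)) = ⊤ :=
  eq_top_iff.2 fun _ _ _ ⟨_, hl, _⟩ => absurd hl (Nat.not_lt_zero _)

/-- The universal property. -/
theorem existsUnique_hom (hF : ∃ c : F, c ≠ 0 ∧ c ≠ 1) :
    ∃! Φ : Sp n F →* H, (∀ j, ∀ x ∈ D.A j, Φ x.1 = x.2) ∧
      ∀ i : Fin n, (i : ℕ) + 1 < n → ∀ x ∈ D.B i, Φ x.1 = x.2 := by
  have hL := D.level hF n 0 (zero_add n)
  have hex : ∀ g, ∃ x ∈ D.Gam 0, x.1 = g := fun g => hL.surj g (by rw [tail_zero]; exact trivial)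
  choose s hs hs1 using hex
  have huniq : ∀ x ∈ D.Gam 0, s x.1 = x := fun x hx => hL.fn.eq (hs _) hx (hs1 _)
  let Φ : Sp n F →* H := MonoidHom.mk' (fun g => (s g).2) fun g h => by
    have := huniq (s g * s h) (mul_mem (hs g) (hs h))
    rw [Prod.fst_mul, hs1, hs1] at this
    show (s (g * h)).2 = _
    rw [this, Prod.snd_mul]
  have hΦ : ∀ x ∈ D.Gam 0, Φ x.1 = x.2 := fun x hx => congrArg Prod.snd (huniq x hx)
  refine ⟨Φ, ⟨fun j x hx => hΦ x (D.A_le_Gam (Nat.zero_le _) hx),
    fun i hi x hx => hΦ x (D.B_le_Gam (Nat.zero_le _) hi hx)⟩, ?_⟩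
  rintro Φ' ⟨hA, hB⟩
  let K : Subgroup (Sp n F × H) :=
    (Φ'.comp (MonoidHom.fst (Sp n F) H)).eqLocus (MonoidHom.snd (Sp n F) H)
  have hle : D.Gam 0 ≤ K := D.Gam_le (fun j _ x hx => hA j x hx) fun i _ hi x hx => hB i hi x hx
  refine MonoidHom.ext fun g => ?_
  have h1 : Φ' (s g).1 = (s g).2 := hle (hs g)
  rw [hs1] at h1
  exact h1

end Amalgam

end Cfsg.Agent.SpAmalgam
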