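import Mathlib.LinearAlgebra.SymplecticGroup
import Mathlib.LinearAlgebra.Matrix.ToLin

/-!
Eichler transformations `x ↦ x + ω(p,x) u + ω(u,x) p + t ω(p,x) p` in the symplectic group of
the standard alternating form, and the pointwise stabilisers of standard basis vectors.
-/

set_option autoImplicit false
set_option linter.unusedSectionVars false

namespace Cfsg.Agent.SpAmalgam

open Matrix

variable {F : Type*} [Field F] {n : ℕ}

abbrev Vec (n : ℕ) (F : Type*) : Type _ := (Fin n ⊕ Fin n) → F

abbrev Sp (n : ℕ) (F : Type*) [Field F] : Type _ := ↥(Matrix.symplecticGroup (Fin n) F)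

/-- The first halves of the standard hyperbolic basis. -/
def ve (i : Fin n) : Vec n F := Pi.single (Sum.inl i) 1

/-- The second halves of the standard hyperbolic basis. -/
def vf (i : Fin n) : Vec n F := Pi.single (Sum.inr i) 1

/-- The alternating form. -/
def om (x y : Vec n F) : F :=
  ∑ i : Fin n, (x (Sum.inr i) * y (Sum.inl i) - x (Sum.inl i) * y (Sum.inr i))

theorem om_eq_dot (x y : Vec n F) : om x y = x ⬝ᵥ (Matrix.J (Fin n) F *ᵥ y) := by
  simp [om, dotProduct, Matrix.J, Matrix.fromBlocks_mulVec, Fintype.sum_sum_type, Matrix.neg_mulVec,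
    Finset.sum_sub_distrib, Finset.sum_neg_distrib]
  ring

theorem om_add_left (x y z : Vec n F) : om (x + y) z = om x z + om y z := by
  simp only [om_eq_dot, add_dotProduct]

theorem om_add_right (x y z : Vec n F) : om x (y + z) = om x y + om x z := by
  simp only [om_eq_dot, Matrix.mulVec_add, dotProduct_add]

theorem om_smul_left (c : F) (x y : Vec n F) : om (c • x) y = c * om x y := by
  simp only [om_eq_dot, smul_dotProduct, smul_eq_mul]

theorem om_smul_right (c : F) (x y : Vec n F) : om x (c • y) = c * om x y := by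
  simp only [om_eq_dot, Matrix.mulVec_smul, dotProduct_smul, smul_eq_mul]

theorem om_neg_left (x y : Vec n F) : om (-x) y = -om x y := by
  simp only [om_eq_dot, neg_dotProduct]

theorem om_neg_right (x y : Vec n F) : om x (-y) = -om x y := by
  simp only [om_eq_dot, Matrix.mulVec_neg, dotProduct_neg]

theorem om_sub_left (x y z : Vec n F) : om (x - y) z = om x z - om y z := by
  rw [sub_eq_add_neg, om_add_left, om_neg_left, ← sub_eq_add_neg]

theorem om_sub_right (x y z : Vec n F) : om x (y - z) = om x y - om x z := by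
  rw [sub_eq_add_neg, om_add_right, om_neg_right, ← sub_eq_add_neg]

@[simp] theorem om_zero_left (y : Vec n F) : om 0 y = 0 := by simp [om]

@[simp] theorem om_zero_right (x : Vec n F) : om x 0 = 0 := by simp [om]

@[simp] theorem om_self (x : Vec n F) : om x x = 0 := by simp [om, mul_comm]

theorem om_swap (x y : Vec n F) : om y x = -om x y := by
  simp only [om, ← Finset.sum_neg_distrib]
  exact Finset.sum_congr rfl fun i _ => by ring

@[simp] theorem om_ve (i : Fin n) (x : Vec n F) : om (ve i) x = -x (Sum.inr i) := by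
  simp [om, ve, Pi.single_apply]

@[simp] theorem om_vf (i : Fin n) (x : Vec n F) : om (vf i) x = x (Sum.inl i) := by
  simp [om, vf, Pi.single_apply]

@[simp] theorem ve_inl (i j : Fin n) : (ve i : Vec n F) (Sum.inl j) = if j = i then 1 else 0 := by
  simp [ve, Pi.single_apply]

@[simp] theorem ve_inr (i j : Fin n) : (ve i : Vec n F) (Sum.inr j) = 0 := by
  simp [ve]

@[simp] theorem vf_inr (i j : Fin n) : (vf i : Vec n F) (Sum.inr j) = if j = i then 1 else 0 := by
  simp [vf, Pi.single_apply]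

@[simp] theorem vf_inl (i j : Fin n) : (vf i : Vec n F) (Sum.inl j) = 0 := by
  simp [vf]

/-- Action on column vectors. -/
def act (g : Sp n F) (v : Vec n F) : Vec n F :=
  (g : Matrix (Fin n ⊕ Fin n) (Fin n ⊕ Fin n) F) *ᵥ v

@[simp] theorem act_one (v : Vec n F) : act 1 v = v := by simp [act]

theorem act_mul (g h : Sp n F) (v : Vec n F) : act (g * h) v = act g (act h v) := by
  simp [act, Matrix.mulVec_mulVec]

@[simp] theorem act_inv_act (g : Sp n F) (v : Vec n F) : act g⁻¹ (act g v) = v := by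
  rw [← act_mul, inv_mul_cancel, act_one]

@[simp] theorem act_act_inv (g : Sp n F) (v : Vec n F) : act g (act g⁻¹ v) = v := by
  rw [← act_mul, mul_inv_cancel, act_one]

theorem act_add (g : Sp n F) (x y : Vec n F) : act g (x + y) = act g x + act g y :=
  Matrix.mulVec_add _ _ _

theorem act_sub (g : Sp n F) (x y : Vec n F) : act g (x - y) = act g x - act g y :=
  Matrix.mulVec_sub _ _ _

theorem act_smul (g : Sp n F) (c : F) (x : Vec n F) : act g (c • x) = c • act g x :=
  Matrix.mulVec_smul _ _ _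

theorem act_neg (g : Sp n F) (x : Vec n F) : act g (-x) = -act g x :=
  Matrix.mulVec_neg _ _

@[simp] theorem act_zero (g : Sp n F) : act g 0 = 0 :=
  Matrix.mulVec_zero _

theorem eq_of_act {g h : Sp n F} (he : ∀ i, act g (ve i) = act h (ve i))
    (hf : ∀ i, act g (vf i) = act h (vf i)) : g = h := by
  refine Subtype.ext (Matrix.ext_of_mulVec_single ?_)
  rintro (i | i)
  · exact he i
  · exact hf i

theorem om_act (g : Sp n F) (x y : Vec n F) : om (act g x) (act g y) = om x y := by
  have h := SymplecticGroup.mem_iff'.1 g.2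
  simp only [om_eq_dot, act]
  rw [Matrix.dotProduct_mulVec, Matrix.dotProduct_mulVec, Matrix.vecMul_mulVec,
    Matrix.vecMul_vecMul]
  rw [h, ← Matrix.dotProduct_mulVec]

/-- The Eichler transformation as a linear map. -/
def eichLin (p u : Vec n F) (t : F) : Vec n F →ₗ[F] Vec n F where
  toFun x := x + om p x • u + om u x • p + (t * om p x) • p
  map_add' x y := by
    simp only [om_add_right, mul_add, add_smul]; abel
  map_smul' c x := by
    simp only [om_smul_right, RingHom.id_apply, smul_add, smul_smul]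
    ring_nf

theorem eich_mem {p u : Vec n F} (h : om p u = 0) (t : F) :
    LinearMap.toMatrix' (eichLin p u t) ∈ Matrix.symplecticGroup (Fin n) F := by
  rw [SymplecticGroup.mem_iff']
  refine Matrix.ext_of_mulVec_single fun j => ?_
  funext i
  have key : ∀ x y : Vec n F, om (eichLin p u t x) (eichLin p u t y) = om x y := by
    intro x y
    have h' : om u p = 0 := by rw [om_swap, h, neg_zero]
    simp only [eichLin, LinearMap.coe_mk, AddHom.coe_mk, om_add_left, om_add_right, om_smul_left,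
      om_smul_right, om_self, h, h', om_swap p x, om_swap u x]
    ring
  have h2 : ∀ x y : Vec n F,
      x ⬝ᵥ (((LinearMap.toMatrix' (eichLin p u t))ᵀ * Matrix.J (Fin n) F *
        LinearMap.toMatrix' (eichLin p u t)) *ᵥ y) = x ⬝ᵥ (Matrix.J (Fin n) F *ᵥ y) := by
    intro x y
    rw [← om_eq_dot, ← key x y, om_eq_dot, ← LinearMap.toMatrix'_mulVec (eichLin p u t) x,
      ← LinearMap.toMatrix'_mulVec (eichLin p u t) y, ← Matrix.mulVec_mulVec,
      ← Matrix.mulVec_mulVec, Matrix.dotProduct_mulVec, Matrix.vecMul_transpose]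
  simpa using h2 (Pi.single i 1) (Pi.single j 1)

open Classical in
/-- The Eichler transformation as an element of the symplectic group. -/
noncomputable def eich (p u : Vec n F) (t : F) : Sp n F :=
  if h : om p u = 0 then ⟨_, eich_mem h t⟩ else 1

theorem act_eich {p u : Vec n F} (h : om p u = 0) (t : F) (x : Vec n F) :
    act (eich p u t) x = x + om p x • u + om u x • p + (t * om p x) • p := by
  rw [eich, dif_pos h]
  exact LinearMap.toMatrix'_mulVec _ _

theorem eich_zero (p : Vec n F) : eich p 0 0 = 1 := by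
  refine eq_of_act (fun i => ?_) (fun i => ?_) <;>
    simp [act_eich (om_zero_right p)]

theorem eich_mul {p u v : Vec n F} (hu : om p u = 0) (hv : om p v = 0) (s t : F) :
    eich p u s * eich p v t = eich p (u + v) (s + t + om u v) := by
  have huv : om p (u + v) = 0 := by rw [om_add_right, hu, hv, add_zero]
  have h' : om u p = 0 := by rw [om_swap, hu, neg_zero]
  have key : ∀ x : Vec n F,
      act (eich p u s * eich p v t) x = act (eich p (u + v) (s + t + om u v)) x := by
    intro x
    rw [act_mul, act_eich hu, act_eich hv, act_eich huv]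
    simp only [om_add_right, om_smul_right, om_self, hu, hv, h', om_add_left, mul_zero, add_zero,
      smul_add]
    module
  exact eq_of_act (fun i => key _) fun i => key _

theorem eich_inv {p u : Vec n F} (hu : om p u = 0) (t : F) :
    (eich p u t)⁻¹ = eich p (-u) (-t) := by
  refine inv_eq_of_mul_eq_one_right ?_
  rw [eich_mul hu (by rw [om_neg_right, hu, neg_zero]), add_neg_cancel, om_neg_right, om_self,
    neg_zero, add_neg_cancel, add_zero, eich_zero]

theorem eich_conj (g : Sp n F) {p u : Vec n F} (hu : om p u = 0) (t : F) :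
    g * eich p u t * g⁻¹ = eich (act g p) (act g u) t := by
  have hu' : om (act g p) (act g u) = 0 := by rw [om_act, hu]
  have key : ∀ x : Vec n F,
      act (g * eich p u t * g⁻¹) x = act (eich (act g p) (act g u) t) x := by
    intro x
    obtain ⟨y, rfl⟩ : ∃ y, act g y = x := ⟨act g⁻¹ x, act_act_inv g x⟩
    rw [act_mul, act_mul, act_inv_act, act_eich hu, act_eich hu']
    simp only [om_act, act_add, act_smul]
  exact eq_of_act (fun i => key _) fun i => key _

/-- Scaling the first vector. -/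
theorem eich_smul {p u : Vec n F} (hu : om p u = 0) (c t : F) :
    eich (c • p) u t = eich p (c • u) (c ^ 2 * t) := by
  have h1 : om (c • p) u = 0 := by rw [om_smul_left, hu, mul_zero]
  have h2 : om p (c • u) = 0 := by rw [om_smul_right, hu, mul_zero]
  have key : ∀ x : Vec n F, act (eich (c • p) u t) x = act (eich p (c • u) (c ^ 2 * t)) x := by
    intro x
    rw [act_eich h1, act_eich h2]
    simp only [om_smul_left]
    module
  exact eq_of_act (fun i => key _) fun i => key _

/-- Pointwise stabiliser. -/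
def fixer (s : Set (Vec n F)) : Subgroup (Sp n F) where
  carrier := {g | ∀ v ∈ s, act g v = v}
  one_mem' _ _ := act_one _
  mul_mem' {g h} hg hh v hv := by rw [act_mul, hh v hv, hg v hv]
  inv_mem' {g} hg v hv := by
    conv_lhs => rw [← hg v hv]
    exact act_inv_act g v

theorem mem_fixer {s : Set (Vec n F)} {g : Sp n F} : g ∈ fixer s ↔ ∀ v ∈ s, act g v = v :=
  Iff.rfl

theorem eich_mem_fixer {s : Set (Vec n F)} {p u : Vec n F} (hu : om p u = 0) (t : F)
    (h : ∀ v ∈ s, om p v = 0 ∧ om u v = 0) : eich p u t ∈ fixer s := by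
  intro v hv
  rw [act_eich hu, (h v hv).1, (h v hv).2]
  simp

/-- The copy of `SL(2, F)` on the `j`th hyperbolic plane. -/
def planeSub (j : Fin n) : Subgroup (Sp n F) :=
  fixer {v | ∃ k, k ≠ j ∧ (v = ve k ∨ v = vf k)}

/-- The abelian subgroup `M i`. -/
def upperSub (i : Fin n) : Subgroup (Sp n F) :=
  fixer {v | (∃ k, v = ve k) ∨ ∃ k : Fin n, (k : ℕ) ≠ i ∧ (k : ℕ) ≠ (i : ℕ) + 1 ∧ v = vf k}

/-- The copy of the symplectic group of the planes of index at least `k`. -/
def tailSub (k : ℕ) : Subgroup (Sp n F) :=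
  fixer {v | ∃ l : Fin n, (l : ℕ) < k ∧ (v = ve l ∨ v = vf l)}

/-- Vectors supported on the planes of index at least `k`. -/
def InTail (k : ℕ) (v : Vec n F) : Prop :=
  ∀ l : Fin n, (l : ℕ) < k → v (Sum.inl l) = 0 ∧ v (Sum.inr l) = 0

theorem inTail_zero (v : Vec n F) : InTail 0 v := fun _ h => absurd h (Nat.not_lt_zero _)

theorem InTail.mono {k l : ℕ} {v : Vec n F} (h : InTail l v) (hkl : k ≤ l) : InTail k v :=
  fun i hi => h i (lt_of_lt_of_le hi hkl)

theorem InTail.add {k : ℕ} {u v : Vec n F} (hu : InTail k u) (hv : InTail k v) :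
    InTail k (u + v) :=
  fun l hl => by simp [hu l hl, hv l hl]

theorem InTail.smul {k : ℕ} {u : Vec n F} (hu : InTail k u) (c : F) : InTail k (c • u) :=
  fun l hl => by simp [hu l hl]

theorem InTail.neg {k : ℕ} {u : Vec n F} (hu : InTail k u) : InTail k (-u) :=
  fun l hl => by simp [hu l hl]

theorem InTail.sub {k : ℕ} {u v : Vec n F} (hu : InTail k u) (hv : InTail k v) :
    InTail k (u - v) :=
  fun l hl => by simp [hu l hl, hv l hl]

theorem inTail_bot {k : ℕ} : InTail k (0 : Vec n F) := fun _ _ => by simp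

theorem inTail_ve {k : ℕ} {b : Fin n} (h : k ≤ b) : InTail k (ve b : Vec n F) := fun l hl => by
  simp [Fin.ne_of_val_ne (show (l : ℕ) ≠ b by omega)]

theorem inTail_vf {k : ℕ} {b : Fin n} (h : k ≤ b) : InTail k (vf b : Vec n F) := fun l hl => by
  simp [Fin.ne_of_val_ne (show (l : ℕ) ≠ b by omega)]

theorem InTail.om_ve {k : ℕ} {u : Vec n F} (hu : InTail k u) {l : Fin n} (hl : (l : ℕ) < k) :
    om (ve l) u = 0 ∧ om (vf l) u = 0 ∧ om u (ve l) = 0 ∧ om u (vf l) = 0 := by
  obtain ⟨h1, h2⟩ := hu l hl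
  refine ⟨by simp [h2], by simp [h1], ?_, ?_⟩
  · rw [om_swap]; simp [h2]
  · rw [om_swap]; simp [h1]

theorem InTail.act {k : ℕ} {g : Sp n F} (hg : g ∈ tailSub k) {v : Vec n F} (hv : InTail k v) :
    InTail k (Cfsg.Agent.SpAmalgam.act g v) := by
  intro l hl
  have he := hg (ve l) ⟨l, hl, Or.inl rfl⟩
  have hf := hg (vf l) ⟨l, hl, Or.inr rfl⟩
  have h1 := om_act g (ve l) v
  have h2 := om_act g (vf l) v
  rw [he] at h1
  rw [hf] at h2
  simp only [SpAmalgam.om_ve, om_vf, (hv l hl).1, (hv l hl).2, neg_zero, neg_eq_zero] at h1 h2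
  exact ⟨h2, h1⟩

theorem exists_om_eq_one {k : ℕ} {u : Vec n F} (hu : InTail k u) (h0 : u ≠ 0) :
    ∃ w, InTail k w ∧ om u w = 1 := by
  obtain ⟨c, hc⟩ : ∃ c, u c ≠ 0 := Function.ne_iff.1 h0
  rcases c with l | l
  · have hl : k ≤ (l : ℕ) := by
      by_contra h
      exact hc (hu l (not_le.1 h)).1
    refine ⟨(-(u (Sum.inl l))⁻¹) • vf l, (inTail_vf hl).smul _, ?_⟩
    rw [om_smul_right, om_swap]
    simp [hc]
  · have hl : k ≤ (l : ℕ) := by
      by_contra h
      exact hc (hu l (not_le.1 h)).2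
    refine ⟨(u (Sum.inr l))⁻¹ • ve l, (inTail_ve hl).smul _, ?_⟩
    rw [om_smul_right, om_swap]
    simp [hc]

/-- Vectors supported on the `j`th plane. -/
def InPlane (j : Fin n) (v : Vec n F) : Prop :=
  ∀ l : Fin n, l ≠ j → v (Sum.inl l) = 0 ∧ v (Sum.inr l) = 0

theorem InPlane.om_ve {j : Fin n} {u : Vec n F} (hu : InPlane j u) {l : Fin n} (hl : l ≠ j) :
    om (ve l) u = 0 ∧ om (vf l) u = 0 ∧ om u (ve l) = 0 ∧ om u (vf l) = 0 := by
  obtain ⟨h1, h2⟩ := hu l hl
  refine ⟨by simp [h2], by simp [h1], ?_, ?_⟩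
  · rw [om_swap]; simp [h2]
  · rw [om_swap]; simp [h1]

theorem inPlane_ve (j : Fin n) : InPlane j (ve j : Vec n F) := fun l hl => by simp [hl]

theorem inPlane_vf (j : Fin n) : InPlane j (vf j : Vec n F) := fun l hl => by simp [hl]

/-- Two-step transitivity by transvections. -/
theorem exists_move (C : Submodule F (Vec n F)) (s : Set (Vec n F))
    (hs : ∀ p ∈ C, ∀ v ∈ s, om p v = 0)
    (hC : ∀ x ∈ C, x ≠ 0 → ∃ w ∈ C, om x w = 1) {x y : Vec n F} (hx : x ∈ C) (hy : y ∈ C)
    (hx0 : x ≠ 0) (hy0 : y ≠ 0) : ∃ g ∈ fixer s, act g x = y := by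
  have one : ∀ {x y : Vec n F}, x ∈ C → y ∈ C → om x y ≠ 0 → ∃ g ∈ fixer s, act g x = y := by
    intro x y hx hy hxy
    refine ⟨eich (y - x) 0 (om y x)⁻¹, eich_mem_fixer (om_zero_right _) _ fun v hv =>
      ⟨hs _ (C.sub_mem hy hx) v hv, om_zero_left _⟩, ?_⟩
    have hyx : om y x ≠ 0 := by rw [om_swap]; exact neg_ne_zero.2 hxy
    rw [act_eich (om_zero_right _), om_sub_left, om_self, sub_zero, inv_mul_cancel₀ hyx]
    simp
  obtain ⟨w₁, hw₁, h₁⟩ := hC x hx hx0
  obtain ⟨w₂, hw₂, h₂⟩ := hC y hy hy0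
  obtain ⟨m, hm, hxm, hmy⟩ : ∃ m ∈ C, om x m ≠ 0 ∧ om m y ≠ 0 := by
    by_cases hy1 : om w₁ y ≠ 0
    · exact ⟨w₁, hw₁, by rw [h₁]; exact one_ne_zero, hy1⟩
    by_cases hx2 : om x w₂ ≠ 0
    · exact ⟨w₂, hw₂, hx2, by rw [om_swap, h₂]; exact neg_ne_zero.2 one_ne_zero⟩
    refine ⟨w₁ + w₂, C.add_mem hw₁ hw₂, ?_, ?_⟩
    · rw [om_add_right, not_not.1 hx2, h₁, add_zero]; exact one_ne_zero
    · rw [om_add_left, not_not.1 hy1, zero_add, om_swap, h₂]; exact neg_ne_zero.2 one_ne_zero
  obtain ⟨g, hg, hgx⟩ := one hx hm hxm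
  obtain ⟨g', hg', hgm⟩ := one hm hy hmy
  exact ⟨g' * g, mul_mem hg' hg, by rw [act_mul, hgx, hgm]⟩

/-- `InTail k` as a submodule. -/
def tailSpace (k : ℕ) : Submodule F (Vec n F) where
  carrier := {v | InTail k v}
  add_mem' := InTail.add
  zero_mem' := inTail_bot
  smul_mem' c _ h := InTail.smul h c

/-- `InPlane j` as a submodule. -/
def planeSpace (j : Fin n) : Submodule F (Vec n F) where
  carrier := {v | InPlane j v}
  add_mem' {u v} hu hv l hl := by simp [hu l hl, hv l hl]
  zero_mem' := fun l _ => by simp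
  smul_mem' c v hv l hl := by simp [hv l hl]

theorem ve_ne_zero (b : Fin n) : (ve b : Vec n F) ≠ 0 := fun h => by
  simpa using congrFun h (Sum.inl b)

theorem exists_move_tail {k : ℕ} {b : Fin n} (hb : k ≤ b) {u : Vec n F} (hu : InTail k u)
    (h0 : u ≠ 0) : ∃ g ∈ tailSub k, act g (ve b) = u :=
  exists_move (tailSpace k) _
    (by rintro p hp v ⟨l, hl, rfl | rfl⟩
        · exact (InTail.om_ve hp hl).2.2.1
        · exact (InTail.om_ve hp hl).2.2.2)
    (fun x hx hx0 => exists_om_eq_one hx hx0) (inTail_ve hb) hu (ve_ne_zero b) h0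

theorem exists_move_plane (b : Fin n) {u : Vec n F} (hu : InPlane b u) (h0 : u ≠ 0) :
    ∃ g ∈ planeSub b, act g (ve b) = u := by
  refine exists_move (planeSpace b) _ ?_ ?_ (inPlane_ve b) hu (ve_ne_zero b) h0
  · rintro p hp v ⟨l, hl, rfl | rfl⟩
    · exact (InPlane.om_ve hp hl).2.2.1
    · exact (InPlane.om_ve hp hl).2.2.2
  · intro x hx hx0
    obtain ⟨c, hc⟩ : ∃ c, x c ≠ 0 := Function.ne_iff.1 hx0
    rcases c with l | l
    · obtain rfl : l = b := by_contra fun h => hc (hx l h).1
      refine ⟨(-(x (Sum.inl l))⁻¹) • vf l, (planeSpace l).smul_mem _ (inPlane_vf l), ?_⟩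
      rw [om_smul_right, om_swap]
      simp [hc]
    · obtain rfl : l = b := by_contra fun h => hc (hx l h).2
      refine ⟨(x (Sum.inr l))⁻¹ • ve l, (planeSpace l).smul_mem _ (inPlane_ve l), ?_⟩
      rw [om_smul_right, om_swap]
      simp [hc]

end Cfsg.Agent.SpAmalgam
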