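import Cfsg.Agent.SpAmalgam.Basic

/-!
The amalgam of the plane subgroups and the subgroups `M i` as a family of functional subgroups of
`Sp × H`, with the lifts of the root elements of one plane.
-/

set_option autoImplicit false
set_option linter.unusedSectionVars false

namespace Cfsg.Agent.SpAmalgam

open Matrix

variable {F : Type*} [Field F] {n : ℕ} {H : Type*} [Group H]

/-- A subgroup of `Sp × H` which is the graph of a homomorphism on its projection. -/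
def Fn (K : Subgroup (Sp n F × H)) : Prop := ∀ x ∈ K, x.1 = 1 → x = 1

theorem Fn.eq {K : Subgroup (Sp n F × H)} (h : Fn K) {x y : Sp n F × H} (hx : x ∈ K) (hy : y ∈ K)
    (e : x.1 = y.1) : x = y :=
  mul_inv_eq_one.1 (h _ (mul_mem hx (inv_mem hy)) (by simp [e]))

theorem Fn.mono {K L : Subgroup (Sp n F × H)} (h : Fn L) (hle : K ≤ L) : Fn K :=
  fun x hx => h x (hle hx)

theorem Fn.commute {K : Subgroup (Sp n F × H)} (h : Fn K) {x y : Sp n F × H} (hx : x ∈ K)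
    (hy : y ∈ K) (e : x.1 * y.1 = y.1 * x.1) : x * y = y * x :=
  h.eq (mul_mem hx hy) (mul_mem hy hx) e

open Classical in
/-- A chosen element of `K` over `g`. -/
noncomputable def lift (K : Subgroup (Sp n F × H)) (g : Sp n F) : Sp n F × H :=
  if h : ∃ x ∈ K, x.1 = g then h.choose else 1

theorem lift_mem (K : Subgroup (Sp n F × H)) (g : Sp n F) : lift K g ∈ K := by
  unfold lift
  split_ifs with h
  · exact h.choose_spec.1
  · exact one_mem K

theorem lift_fst {K : Subgroup (Sp n F × H)} {g : Sp n F} (h : ∃ x ∈ K, x.1 = g) :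
    (lift K g).1 = g := by
  unfold lift
  rw [dif_pos h]
  exact h.choose_spec.2

theorem lift_eq {K : Subgroup (Sp n F × H)} (hK : Fn K) {x : Sp n F × H} (hx : x ∈ K) :
    lift K x.1 = x :=
  hK.eq (lift_mem K _) hx (lift_fst ⟨x, hx, rfl⟩)

/-- The amalgam: lifts of the `S j` and the `M i` agreeing on each pair. -/
structure Amalgam (n : ℕ) (F : Type*) [Field F] (H : Type*) [Group H] where
  A : Fin n → Subgroup (Sp n F × H)
  B : Fin n → Subgroup (Sp n F × H)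
  memA : ∀ j g, g ∈ planeSub j ↔ ∃ x ∈ A j, x.1 = g
  memB : ∀ i : Fin n, (i : ℕ) + 1 < n → ∀ g, g ∈ upperSub i ↔ ∃ x ∈ B i, x.1 = g
  okA : ∀ j, Fn (A j)
  okAA : ∀ j l, j ≠ l → Fn (A j ⊔ A l)
  okBB : ∀ i i' : Fin n, i ≠ i' → (i : ℕ) + 1 < n → (i' : ℕ) + 1 < n → Fn (B i ⊔ B i')
  okAB : ∀ i j : Fin n, (i : ℕ) + 1 < n → Fn (B i ⊔ A j)

namespace Amalgam

variable (D : Amalgam n F H)

/-- The subgroup generated by the lifts on the planes of index at least `k`. -/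
def Gam (k : ℕ) : Subgroup (Sp n F × H) :=
  (⨆ j : {j : Fin n // k ≤ (j : ℕ)}, D.A j) ⊔
    ⨆ i : {i : Fin n // k ≤ (i : ℕ) ∧ (i : ℕ) + 1 < n}, D.B i

theorem A_le_Gam {k : ℕ} {j : Fin n} (h : k ≤ (j : ℕ)) : D.A j ≤ D.Gam k :=
  le_sup_of_le_left (le_iSup (fun j : {j : Fin n // k ≤ (j : ℕ)} => D.A j) ⟨j, h⟩)

theorem B_le_Gam {k : ℕ} {i : Fin n} (h : k ≤ (i : ℕ)) (hi : (i : ℕ) + 1 < n) :
    D.B i ≤ D.Gam k :=
  le_sup_of_le_right
    (le_iSup (fun i : {i : Fin n // k ≤ (i : ℕ) ∧ (i : ℕ) + 1 < n} => D.B i) ⟨i, h, hi⟩)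

theorem Gam_le {k : ℕ} {K : Subgroup (Sp n F × H)} (hA : ∀ j : Fin n, k ≤ (j : ℕ) → D.A j ≤ K)
    (hB : ∀ i : Fin n, k ≤ (i : ℕ) → (i : ℕ) + 1 < n → D.B i ≤ K) : D.Gam k ≤ K :=
  sup_le (iSup_le fun j => hA j j.2) (iSup_le fun i => hB i i.2.1 i.2.2)

theorem Gam_anti {k l : ℕ} (h : k ≤ l) : D.Gam l ≤ D.Gam k :=
  D.Gam_le (fun _ hj => D.A_le_Gam (h.trans hj)) fun _ hi hi' => D.B_le_Gam (h.trans hi) hi'

theorem fst_mem_A {j : Fin n} {x : Sp n F × H} (hx : x ∈ D.A j) : x.1 ∈ planeSub j :=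
  (D.memA j _).2 ⟨x, hx, rfl⟩

theorem fst_mem_B {i : Fin n} (hi : (i : ℕ) + 1 < n) {x : Sp n F × H} (hx : x ∈ D.B i) :
    x.1 ∈ upperSub i :=
  (D.memB i hi _).2 ⟨x, hx, rfl⟩

theorem fst_mem_tail {k : ℕ} {x : Sp n F × H} (hx : x ∈ D.Gam k) : x.1 ∈ tailSub k := by
  have hle : D.Gam k ≤ (tailSub k).comap (MonoidHom.fst _ H) := by
    refine D.Gam_le (fun j hj y hy => ?_) fun i hi hi' y hy => ?_
    · rintro v ⟨l, hl, hv⟩
      exact D.fst_mem_A hy v ⟨l, fun h => by subst h; omega, hv⟩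
    · rintro v ⟨l, hl, rfl | rfl⟩
      · exact D.fst_mem_B hi' hy _ (Or.inl ⟨l, rfl⟩)
      · exact D.fst_mem_B hi' hy _ (Or.inr ⟨l, by omega, by omega, rfl⟩)
  exact hle hx

/-- The lift of `x_{2e}(t)`. -/
noncomputable def zz (a : Fin n) (t : F) : Sp n F × H := lift (D.A a) (eich (ve a) 0 t)

/-- The lift of `x_{-2e}(t)`. -/
noncomputable def yy (a : Fin n) (t : F) : Sp n F × H := lift (D.A a) (eich (vf a) 0 t)

/-- The lift of the Weyl element. -/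
noncomputable def ww (a : Fin n) : Sp n F × H := D.zz a 1 * D.yy a 1 * D.zz a 1

/-- The lift of the torus element. -/
noncomputable def hh (a : Fin n) (c : F) : Sp n F × H :=
  D.zz a c * D.yy a c⁻¹ * D.zz a c * (D.ww a)⁻¹

variable (a : Fin n)

theorem zz_mem (t : F) : D.zz a t ∈ D.A a := lift_mem _ _

theorem yy_mem (t : F) : D.yy a t ∈ D.A a := lift_mem _ _

theorem ww_mem : D.ww a ∈ D.A a :=
  mul_mem (mul_mem (D.zz_mem a 1) (D.yy_mem a 1)) (D.zz_mem a 1)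

theorem hh_mem (c : F) : D.hh a c ∈ D.A a :=
  mul_mem (mul_mem (mul_mem (D.zz_mem a c) (D.yy_mem a _)) (D.zz_mem a c)) (inv_mem (D.ww_mem a))

theorem zz_fst (t : F) : (D.zz a t).1 = eich (ve a) 0 t := by
  refine lift_fst ((D.memA a _).1 (eich_mem_fixer (om_zero_right _) _ ?_))
  rintro v ⟨l, hl, rfl | rfl⟩ <;> simp [Ne.symm hl]

theorem yy_fst (t : F) : (D.yy a t).1 = eich (vf a) 0 t := by
  refine lift_fst ((D.memA a _).1 (eich_mem_fixer (om_zero_right _) _ ?_))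
  rintro v ⟨l, hl, rfl | rfl⟩ <;> simp [Ne.symm hl]

theorem act_zz_e (t : F) : act (D.zz a t).1 (ve a) = ve a := by
  rw [D.zz_fst, act_eich (om_zero_right _)]; simp

theorem act_zz_f (t : F) : act (D.zz a t).1 (vf a) = vf a - t • ve a := by
  rw [D.zz_fst, act_eich (om_zero_right _)]; simp [sub_eq_add_neg]

theorem act_yy_e (t : F) : act (D.yy a t).1 (ve a) = ve a + t • vf a := by
  rw [D.yy_fst, act_eich (om_zero_right _)]; simp

theorem act_yy_f (t : F) : act (D.yy a t).1 (vf a) = vf a := by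
  rw [D.yy_fst, act_eich (om_zero_right _)]; simp

theorem act_zyz_e {c : F} (hc : c ≠ 0) :
    act (D.zz a c * D.yy a c⁻¹ * D.zz a c).1 (ve a) = c⁻¹ • vf a := by
  rw [Prod.fst_mul, Prod.fst_mul, act_mul, act_mul, act_zz_e, act_yy_e, act_add, act_smul,
    act_zz_e, act_zz_f, smul_sub, smul_smul, inv_mul_cancel₀ hc, one_smul]
  abel

theorem act_zyz_f {c : F} (hc : c ≠ 0) :
    act (D.zz a c * D.yy a c⁻¹ * D.zz a c).1 (vf a) = -(c • ve a) := by
  rw [Prod.fst_mul, Prod.fst_mul, act_mul, act_mul, act_zz_f, act_sub, act_smul, act_yy_e,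
    act_yy_f, smul_add, smul_smul, mul_inv_cancel₀ hc, one_smul]
  rw [act_sub, act_zz_f, act_add, act_smul, act_zz_e, act_zz_f]
  abel

theorem act_ww_e : act (D.ww a).1 (ve a) = vf a := by
  have h := D.act_zyz_e a (one_ne_zero : (1 : F) ≠ 0)
  rw [inv_one, one_smul] at h
  exact h

theorem act_ww_f : act (D.ww a).1 (vf a) = -ve a := by
  have h := D.act_zyz_f a (one_ne_zero : (1 : F) ≠ 0)
  rw [inv_one, one_smul] at h
  exact h

theorem act_ww_inv_e : act (D.ww a).1⁻¹ (ve a) = -vf a := by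
  conv_lhs => rw [show (ve a : Vec n F) = act (D.ww a).1 (-vf a) by
    rw [act_neg, act_ww_f, neg_neg]]
  rw [act_inv_act]

theorem act_ww_inv_f : act (D.ww a).1⁻¹ (vf a) = ve a := by
  conv_lhs => rw [← D.act_ww_e a]
  rw [act_inv_act]

theorem act_hh_e {c : F} (hc : c ≠ 0) : act (D.hh a c).1 (ve a) = c • ve a := by
  rw [hh, Prod.fst_mul, Prod.fst_inv, act_mul, act_ww_inv_e, act_neg, act_zyz_f D a hc, neg_neg]

theorem act_hh_f {c : F} (hc : c ≠ 0) : act (D.hh a c).1 (vf a) = c⁻¹ • vf a := by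
  rw [hh, Prod.fst_mul, Prod.fst_inv, act_mul, act_ww_inv_f, act_zyz_e D a hc]

theorem eq_A {x y : Sp n F × H} (hx : x ∈ D.A a) (hy : y ∈ D.A a)
    (he : act x.1 (ve a) = act y.1 (ve a)) (hf : act x.1 (vf a) = act y.1 (vf a)) : x = y := by
  refine (D.okA a).eq hx hy (eq_of_act (fun i => ?_) fun i => ?_) <;> by_cases h : i = a
  · rwa [h]
  · rw [D.fst_mem_A hx _ ⟨i, h, Or.inl rfl⟩, D.fst_mem_A hy _ ⟨i, h, Or.inl rfl⟩]
  · rwa [h]
  · rw [D.fst_mem_A hx _ ⟨i, h, Or.inr rfl⟩, D.fst_mem_A hy _ ⟨i, h, Or.inr rfl⟩]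

theorem zz_add (s t : F) : D.zz a s * D.zz a t = D.zz a (s + t) := by
  refine (D.okA a).eq (mul_mem (D.zz_mem a s) (D.zz_mem a t)) (D.zz_mem a _) ?_
  rw [Prod.fst_mul, D.zz_fst, D.zz_fst, D.zz_fst, eich_mul (om_zero_right _) (om_zero_right _)]
  simp

theorem zz_zero : D.zz a 0 = 1 :=
  D.okA a _ (D.zz_mem a 0) (by rw [D.zz_fst, eich_zero])

theorem zz_inv (t : F) : (D.zz a t)⁻¹ = D.zz a (-t) :=
  inv_eq_of_mul_eq_one_right (by rw [D.zz_add, add_neg_cancel, D.zz_zero])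

theorem hh_one : D.hh a 1 = 1 := by
  refine D.eq_A a (D.hh_mem a 1) (one_mem _) ?_ ?_ <;>
    simp [D.act_hh_e a one_ne_zero, D.act_hh_f a one_ne_zero]

theorem hh_mul {c d : F} (hc : c ≠ 0) (hd : d ≠ 0) : D.hh a c * D.hh a d = D.hh a (c * d) := by
  refine D.eq_A a (mul_mem (D.hh_mem a c) (D.hh_mem a d)) (D.hh_mem a _) ?_ ?_
  · rw [Prod.fst_mul, act_mul, D.act_hh_e a hd, act_smul, D.act_hh_e a hc,
      D.act_hh_e a (mul_ne_zero hc hd), smul_smul, mul_comm]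
  · rw [Prod.fst_mul, act_mul, D.act_hh_f a hd, act_smul, D.act_hh_f a hc,
      D.act_hh_f a (mul_ne_zero hc hd), smul_smul, mul_inv, mul_comm]

theorem hh_inv {c : F} (hc : c ≠ 0) : (D.hh a c)⁻¹ = D.hh a c⁻¹ :=
  inv_eq_of_mul_eq_one_right (by rw [D.hh_mul a hc (inv_ne_zero hc), mul_inv_cancel₀ hc, D.hh_one])

theorem hh_mul_zz {c : F} (hc : c ≠ 0) (t : F) :
    D.hh a c * D.zz a t = D.zz a (c ^ 2 * t) * D.hh a c := by
  refine D.eq_A a (mul_mem (D.hh_mem a c) (D.zz_mem a t))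
    (mul_mem (D.zz_mem a _) (D.hh_mem a c)) ?_ ?_
  · simp only [Prod.fst_mul, act_mul, D.act_zz_e, D.act_hh_e a hc, act_smul]
  · simp only [Prod.fst_mul, act_mul, D.act_zz_f, D.act_hh_f a hc, act_sub, act_smul,
      D.act_hh_e a hc, smul_sub, smul_smul]
    congr 2
    field_simp

theorem hh_mul_ww {c : F} (hc : c ≠ 0) : D.hh a c * D.ww a = D.ww a * D.hh a c⁻¹ := by
  refine D.eq_A a (mul_mem (D.hh_mem a c) (D.ww_mem a))
    (mul_mem (D.ww_mem a) (D.hh_mem a _)) ?_ ?_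
  · simp only [Prod.fst_mul, act_mul, D.act_ww_e, D.act_hh_e a (inv_ne_zero hc),
      D.act_hh_f a hc, act_smul]
  · simp only [Prod.fst_mul, act_mul, D.act_ww_f, D.act_hh_e a hc, D.act_hh_f a (inv_ne_zero hc),
      act_smul, act_neg, inv_inv, smul_neg]

theorem ww_mul_ww : D.ww a * D.ww a = D.hh a (-1) := by
  refine D.eq_A a (mul_mem (D.ww_mem a) (D.ww_mem a)) (D.hh_mem a _) ?_ ?_
  · rw [Prod.fst_mul, act_mul, D.act_ww_e, D.act_ww_f, D.act_hh_e a (by simp)]; simp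
  · rw [Prod.fst_mul, act_mul, D.act_ww_f, act_neg, D.act_ww_e, D.act_hh_f a (by simp)]; simp

theorem ww_conj_zz (t : F) : D.ww a * D.zz a t * (D.ww a)⁻¹ = D.yy a t := by
  refine D.eq_A a (mul_mem (mul_mem (D.ww_mem a) (D.zz_mem a t)) (inv_mem (D.ww_mem a)))
    (D.yy_mem a t) ?_ ?_
  · rw [Prod.fst_mul, Prod.fst_mul, Prod.fst_inv, act_mul, act_mul, act_ww_inv_e, act_neg,
      D.act_zz_f, act_neg, act_sub, act_smul, D.act_ww_e, D.act_ww_f, D.act_yy_e]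
    abel
  · rw [Prod.fst_mul, Prod.fst_mul, Prod.fst_inv, act_mul, act_mul, act_ww_inv_f, D.act_zz_e,
      D.act_ww_e, D.act_yy_f]

end Amalgam

end Cfsg.Agent.SpAmalgam
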