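import Cfsg.Agent.SpAmalgam.Data
import Mathlib.Tactic.LinearCombination
import Mathlib.Tactic.Module

/-!
The lifts `qq u` of the Eichler transformations at `e_a`, built from the completion on the planes
above `a`.
-/

set_option autoImplicit false
set_option linter.unusedSectionVars false

namespace Cfsg.Agent.SpAmalgam

open Matrix

variable {F : Type*} [Field F] {n : ℕ} {H : Type*} [Group H]

theorem vec_ext {u v : Vec n F} (he : ∀ l, om (ve l) u = om (ve l) v)
    (hf : ∀ l, om (vf l) u = om (vf l) v) : u = v := by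
  funext c
  rcases c with l | l
  · simpa using hf l
  · simpa using he l

theorem inPlane_decomp {j : Fin n} {v : Vec n F} (h : InPlane j v) :
    v = v (Sum.inl j) • ve j + v (Sum.inr j) • vf j := by
  funext c
  rcases c with l | l <;> by_cases hl : l = j
  · subst hl; simp
  · simp [hl, (h l hl).1]
  · subst hl; simp
  · simp [hl, (h l hl).2]

theorem act_planeSub {j : Fin n} {g : Sp n F} (hg : g ∈ planeSub j) {v : Vec n F}
    (hv : InPlane j v) : InPlane j (act g v) := by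
  intro l hl
  have h1 := om_act g (ve l) v
  have h2 := om_act g (vf l) v
  rw [hg (ve l) ⟨l, hl, Or.inl rfl⟩] at h1
  rw [hg (vf l) ⟨l, hl, Or.inr rfl⟩] at h2
  obtain ⟨e1, e2, -, -⟩ := hv.om_ve hl
  rw [e1, om_ve, neg_eq_zero] at h1
  rw [e2, om_vf] at h2
  exact ⟨h2, h1⟩

/-- A plane subgroup fixes the orthogonal of its plane. -/
theorem act_planeSub_perp {j : Fin n} {g : Sp n F} (hg : g ∈ planeSub j) {w : Vec n F}
    (h1 : w (Sum.inl j) = 0) (h2 : w (Sum.inr j) = 0) : act g w = w := by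
  have key : ∀ {x : Vec n F}, InPlane j x → om x w = 0 := by
    intro x hx
    rw [inPlane_decomp hx, om_add_left, om_smul_left, om_smul_left, om_ve, om_vf, h1, h2]
    simp
  have hperp : ∀ {x : Vec n F}, InPlane j x → om x (act g w) = 0 := by
    intro x hx
    rw [← act_act_inv g x, om_act]
    exact key (act_planeSub (inv_mem hg) hx)
  refine vec_ext (fun l => ?_) fun l => ?_ <;> by_cases hl : l = j
  · subst hl; rw [hperp (inPlane_ve l), key (inPlane_ve l)]
  · conv_lhs => rw [← hg (ve l) ⟨l, hl, Or.inl rfl⟩]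
    rw [om_act]
  · subst hl; rw [hperp (inPlane_vf l), key (inPlane_vf l)]
  · conv_lhs => rw [← hg (vf l) ⟨l, hl, Or.inr rfl⟩]
    rw [om_act]

theorem mul_comm_planeSub {j : Fin n} {g h : Sp n F} (hg : g ∈ planeSub j)
    (he : act h (ve j) = ve j) (hf : act h (vf j) = vf j) : g * h = h * g := by
  have key : ∀ {x : Vec n F}, InPlane j x → act h x = x := by
    intro x hx
    rw [inPlane_decomp hx, act_add, act_smul, act_smul, he, hf]
  have other : ∀ {w : Vec n F}, w (Sum.inl j) = 0 → w (Sum.inr j) = 0 → act g (act h w) = act h w := by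
    intro w h1 h2
    refine act_planeSub_perp hg ?_ ?_
    · have := om_act h (vf j) w
      rw [hf, om_vf, om_vf, h1] at this
      exact this
    · have := om_act h (ve j) w
      rw [he, om_ve, om_ve, h2, neg_zero, neg_eq_zero] at this
      exact this
  refine eq_of_act (fun l => ?_) fun l => ?_ <;> rw [act_mul, act_mul] <;> by_cases hl : l = j
  · subst hl; rw [he, key (act_planeSub hg (inPlane_ve l))]
  · rw [hg (ve l) ⟨l, hl, Or.inl rfl⟩, other (by simp [Ne.symm hl]) (by simp)]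
  · subst hl; rw [hf, key (act_planeSub hg (inPlane_vf l))]
  · rw [hg (vf l) ⟨l, hl, Or.inr rfl⟩, other (by simp) (by simp [Ne.symm hl])]

/-- Fixing both defining vectors gives commutation with an Eichler transformation. -/
theorem commute_eich {d : Sp n F} {p u : Vec n F} {t : F} (h : om p u = 0) (hp : act d p = p)
    (hu : act d u = u) : d * eich p u t = eich p u t * d := by
  have := eich_conj d h t
  rw [hp, hu] at this
  exact mul_inv_eq_iff_eq_mul.1 this

namespace Amalgam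

variable (D : Amalgam n F H)

/-- The extra generators of the stabiliser of `e_a`. -/
def extra (a : Fin n) : Subgroup (Sp n F × H) :=
  (⨆ _ : (a : ℕ) + 1 < n, D.B a) ⊔ Subgroup.closure (Set.range (D.zz a))

theorem B_le_extra {a : Fin n} (h : (a : ℕ) + 1 < n) : D.B a ≤ D.extra a :=
  le_sup_of_le_left (le_iSup (fun _ : (a : ℕ) + 1 < n => D.B a) h)

theorem zz_mem_extra (a : Fin n) (t : F) : D.zz a t ∈ D.extra a :=
  Subgroup.mem_sup_right (Subgroup.subset_closure ⟨t, rfl⟩)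

/-- The induction statement on the planes of index at least `k`. -/
structure Level (k : ℕ) : Prop where
  fn : Fn (D.Gam k)
  surj : ∀ g ∈ tailSub k, ∃ x ∈ D.Gam k, x.1 = g
  stab : ∀ a : Fin n, (a : ℕ) = k → ∀ x ∈ D.Gam k, act x.1 (ve a) = ve a →
    x ∈ D.Gam (k + 1) ⊔ D.extra a

theorem gam_comm_A {a : Fin n} {x y : Sp n F × H} (hx : x ∈ D.Gam ((a : ℕ) + 1))
    (hy : y ∈ D.A a) : x * y = y * x := by
  suffices hle : D.Gam ((a : ℕ) + 1) ≤ Subgroup.centralizer (D.A a : Set (Sp n F × H)) from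
    (Subgroup.mem_centralizer_iff.1 (hle hx) y hy).symm
  refine D.Gam_le (fun j hj z hz => ?_) fun i hi hi' z hz => ?_ <;>
    rw [Subgroup.mem_centralizer_iff] <;> intro y hy
  · have hne : a ≠ j := fun h => by subst h; omega
    exact (D.okAA a j hne).commute (Subgroup.mem_sup_left hy) (Subgroup.mem_sup_right hz)
      (mul_comm_planeSub (D.fst_mem_A hy) (D.fst_mem_A hz _ ⟨a, hne, Or.inl rfl⟩)
        (D.fst_mem_A hz _ ⟨a, hne, Or.inr rfl⟩))
  · exact (D.okAB i a hi').commute (Subgroup.mem_sup_right hy) (Subgroup.mem_sup_left hz)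
      (mul_comm_planeSub (D.fst_mem_A hy) (D.fst_mem_B hi' hz _ (Or.inl ⟨a, rfl⟩))
        (D.fst_mem_B hi' hz _ (Or.inr ⟨a, by omega, by omega, rfl⟩)))

theorem act_gam_e {a : Fin n} {x : Sp n F × H} (hx : x ∈ D.Gam ((a : ℕ) + 1)) :
    act x.1 (ve a) = ve a :=
  D.fst_mem_tail hx _ ⟨a, Nat.lt_succ_self _, Or.inl rfl⟩

theorem act_gam_f {a : Fin n} {x : Sp n F × H} (hx : x ∈ D.Gam ((a : ℕ) + 1)) :
    act x.1 (vf a) = vf a :=
  D.fst_mem_tail hx _ ⟨a, Nat.lt_succ_self _, Or.inr rfl⟩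

theorem act_A_tail {a : Fin n} {x : Sp n F × H} (hx : x ∈ D.A a) {u : Vec n F}
    (hu : InTail ((a : ℕ) + 1) u) : act x.1 u = u :=
  act_planeSub_perp (D.fst_mem_A hx) (hu a (Nat.lt_succ_self _)).1 (hu a (Nat.lt_succ_self _)).2

variable (a : Fin n)

/-- The lift of `x_{e_a + e_b}(1)`. -/
noncomputable def q0 (b : Fin n) : Sp n F × H := lift (D.B a) (eich (ve a) (ve b) 0)

open Classical in
/-- The lift of the Eichler transformation at `e_a` and `u`. -/
noncomputable def qq (u : Vec n F) : Sp n F × H :=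
  if h : ∃ p : Fin n × (Sp n F × H),
      (p.1 : ℕ) = (a : ℕ) + 1 ∧ p.2 ∈ D.Gam ((a : ℕ) + 1) ∧ act p.2.1 (ve p.1) = u
  then h.choose.2 * D.q0 a h.choose.1 * h.choose.2⁻¹ else 1

theorem q0_fst {b : Fin n} (hb : (b : ℕ) = (a : ℕ) + 1) :
    (D.q0 a b).1 = eich (ve a) (ve b) 0 := by
  have ha : (a : ℕ) + 1 < n := hb ▸ b.2
  refine lift_fst ((D.memB a ha _).1 (eich_mem_fixer (by simp) _ ?_))
  rintro v (⟨l, rfl⟩ | ⟨l, h1, h2, rfl⟩)
  · simp
  · simp [Fin.ne_of_val_ne h1, Fin.ne_of_val_ne (show (l : ℕ) ≠ b by omega),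
      Ne.symm (Fin.ne_of_val_ne h1), Ne.symm (Fin.ne_of_val_ne (show (l : ℕ) ≠ b by omega))]

theorem qq_zero : D.qq a 0 = 1 := by
  rw [qq, dif_neg]
  rintro ⟨⟨b, x⟩, -, -, hx⟩
  exact ve_ne_zero b (by rw [← act_inv_act x.1 (ve b), hx, act_zero])

variable {a}
variable (hL : D.Level ((a : ℕ) + 1))
include hL

theorem comm_stab {b : Fin n} (hb : (b : ℕ) = (a : ℕ) + 1) {d : Sp n F × H}
    (hd : d ∈ D.Gam ((a : ℕ) + 1)) (hfix : act d.1 (ve b) = ve b) :
    d * D.q0 a b = D.q0 a b * d := by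
  have ha : (a : ℕ) + 1 < n := hb ▸ b.2
  have hq : D.q0 a b ∈ D.B a := lift_mem _ _
  have com : ∀ {z : Sp n F × H} {K : Subgroup (Sp n F × H)}, Fn (D.B a ⊔ K) → z ∈ K →
      act z.1 (ve a) = ve a → act z.1 (ve b) = ve b → z * D.q0 a b = D.q0 a b * z := by
    intro z K hK hz h1 h2
    refine hK.commute (Subgroup.mem_sup_right hz) (Subgroup.mem_sup_left hq) ?_
    rw [D.q0_fst a hb]
    exact commute_eich (by simp) h1 h2
  suffices hle : D.Gam ((b : ℕ) + 1) ⊔ D.extra b ≤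
      Subgroup.centralizer ({D.q0 a b} : Set (Sp n F × H)) by
    have h := hL.stab b hb d hd hfix
    rw [← hb] at h
    exact (Subgroup.mem_centralizer_iff.1 (hle h) _ rfl).symm
  refine sup_le (D.Gam_le ?_ ?_) (sup_le (iSup_le fun hb' => ?_) ((Subgroup.closure_le _).2 ?_))
  · intro j hj z hz
    rw [Subgroup.mem_centralizer_iff]; rintro _ rfl
    exact (com (D.okAB a j ha) hz
      (D.fst_mem_A hz _ ⟨a, fun h => by subst h; omega, Or.inl rfl⟩)
      (D.fst_mem_A hz _ ⟨b, fun h => by subst h; omega, Or.inl rfl⟩)).symm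
  · intro i hi hi' z hz
    rw [Subgroup.mem_centralizer_iff]; rintro _ rfl
    exact (com (D.okBB a i (fun h => by subst h; omega) ha hi') hz
      (D.fst_mem_B hi' hz _ (Or.inl ⟨a, rfl⟩)) (D.fst_mem_B hi' hz _ (Or.inl ⟨b, rfl⟩))).symm
  · intro z hz
    rw [Subgroup.mem_centralizer_iff]; rintro _ rfl
    exact (com (D.okBB a b (fun h => by subst h; omega) ha hb') hz
      (D.fst_mem_B hb' hz _ (Or.inl ⟨a, rfl⟩)) (D.fst_mem_B hb' hz _ (Or.inl ⟨b, rfl⟩))).symm
  · rintro _ ⟨t, rfl⟩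
    rw [SetLike.mem_coe, Subgroup.mem_centralizer_iff]; rintro _ rfl
    exact (com (D.okAB a b ha) (D.zz_mem b t)
      (D.fst_mem_A (D.zz_mem b t) _ ⟨a, fun h => by subst h; omega, Or.inl rfl⟩)
      (D.act_zz_e b t)).symm

theorem qq_spec {b : Fin n} (hb : (b : ℕ) = (a : ℕ) + 1) {x : Sp n F × H}
    (hx : x ∈ D.Gam ((a : ℕ) + 1)) {u : Vec n F} (hxu : act x.1 (ve b) = u) :
    D.qq a u = x * D.q0 a b * x⁻¹ := by
  have hex : ∃ p : Fin n × (Sp n F × H),
      (p.1 : ℕ) = (a : ℕ) + 1 ∧ p.2 ∈ D.Gam ((a : ℕ) + 1) ∧ act p.2.1 (ve p.1) = u :=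
    ⟨(b, x), hb, hx, hxu⟩
  rw [qq, dif_pos hex]
  obtain ⟨h1, h2, h3⟩ := hex.choose_spec
  set p := hex.choose
  have hpb : p.1 = b := Fin.ext (h1.trans hb.symm)
  rw [hpb] at h3 ⊢
  have hd : act (x⁻¹ * p.2).1 (ve b) = ve b := by
    rw [Prod.fst_mul, Prod.fst_inv, act_mul, h3, ← hxu, act_inv_act]
  have hc := D.comm_stab hL hb (mul_mem (inv_mem hx) h2) hd
  calc p.2 * D.q0 a b * p.2⁻¹ = x * ((x⁻¹ * p.2) * D.q0 a b) * p.2⁻¹ := by group
    _ = x * (D.q0 a b * (x⁻¹ * p.2)) * p.2⁻¹ := by rw [hc]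
    _ = x * D.q0 a b * x⁻¹ := by group

theorem exists_rep {u : Vec n F} (hu : InTail ((a : ℕ) + 1) u) (h0 : u ≠ 0) :
    ∃ b : Fin n, (b : ℕ) = (a : ℕ) + 1 ∧
      ∃ x ∈ D.Gam ((a : ℕ) + 1), act x.1 (ve b) = u := by
  have ha : (a : ℕ) + 1 < n := by
    by_contra h
    refine h0 (funext fun c => ?_)
    rcases c with l | l <;> [exact (hu l (by omega)).1; exact (hu l (by omega)).2]
  obtain ⟨g, hg, hgu⟩ := exists_move_tail (b := ⟨(a : ℕ) + 1, ha⟩) le_rfl hu h0
  obtain ⟨x, hx, rfl⟩ := hL.surj g hg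
  exact ⟨_, rfl, x, hx, hgu⟩

theorem qq_fst {u : Vec n F} (hu : InTail ((a : ℕ) + 1) u) :
    (D.qq a u).1 = eich (ve a) u 0 := by
  by_cases h0 : u = 0
  · rw [h0, qq_zero, Prod.fst_one, eich_zero]
  obtain ⟨b, hb, x, hx, hxu⟩ := D.exists_rep hL hu h0
  rw [D.qq_spec hL hb hx hxu, Prod.fst_mul, Prod.fst_mul, Prod.fst_inv, D.q0_fst a hb,
    eich_conj _ (by simp), D.act_gam_e hx, hxu]

theorem qq_conj {u : Vec n F} (hu : InTail ((a : ℕ) + 1) u) {x : Sp n F × H}
    (hx : x ∈ D.Gam ((a : ℕ) + 1)) : x * D.qq a u * x⁻¹ = D.qq a (act x.1 u) := by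
  by_cases h0 : u = 0
  · rw [h0, act_zero, qq_zero, mul_one, mul_inv_cancel]
  obtain ⟨b, hb, y, hy, hyu⟩ := D.exists_rep hL hu h0
  rw [D.qq_spec hL hb hy hyu, D.qq_spec hL hb (mul_mem hx hy)
    (show act (x * y).1 (ve b) = act x.1 u by rw [Prod.fst_mul, act_mul, hyu])]
  group

theorem zz_mem_B (ha : (a : ℕ) + 1 < n) (t : F) : D.zz a t ∈ D.B a := by
  obtain ⟨y, hy, hy1⟩ := (D.memB a ha (eich (ve a) 0 t)).1 (eich_mem_fixer (om_zero_right _) _ (by
    rintro v (⟨l, rfl⟩ | ⟨l, h1, h2, rfl⟩)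
    · simp
    · simp [Fin.ne_of_val_ne h1, Ne.symm (Fin.ne_of_val_ne h1)]))
  have : y = D.zz a t := (D.okAB a a ha).eq (Subgroup.mem_sup_left hy)
    (Subgroup.mem_sup_right (D.zz_mem a t)) (by rw [hy1, D.zz_fst])
  rwa [← this]

theorem qq_line {b : Fin n} (hb : (b : ℕ) = (a : ℕ) + 1) (s : F) :
    D.qq a (s • ve b) ∈ D.B a := by
  by_cases h0 : s = 0
  · rw [h0, zero_smul, qq_zero]; exact one_mem _
  have ha : (a : ℕ) + 1 < n := hb ▸ b.2
  have hx : D.hh b s ∈ D.A b := D.hh_mem b s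
  have hne : a ≠ b := fun h => by subst h; omega
  rw [D.qq_spec hL hb (D.A_le_Gam (by omega) hx) (D.act_hh_e b h0)]
  obtain ⟨y, hy, hy1⟩ := (D.memB a ha (eich (ve a) (s • ve b) 0)).1 (eich_mem_fixer
    (by simp [hne, hne.symm]) _ (by
    rintro v (⟨l, rfl⟩ | ⟨l, h1, h2, rfl⟩)
    · simp [om_smul_left]
    · simp [Fin.ne_of_val_ne h1, Fin.ne_of_val_ne (show (l : ℕ) ≠ b by omega),
      Ne.symm (Fin.ne_of_val_ne h1), Ne.symm (Fin.ne_of_val_ne (show (l : ℕ) ≠ b by omega)),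
      om_smul_left]))
  have : D.hh b s * D.q0 a b * (D.hh b s)⁻¹ = y := by
    refine (D.okAB a b ha).eq (mul_mem (mul_mem (Subgroup.mem_sup_right hx)
      (Subgroup.mem_sup_left (lift_mem _ _))) (inv_mem (Subgroup.mem_sup_right hx)))
      (Subgroup.mem_sup_left hy) ?_
    rw [Prod.fst_mul, Prod.fst_mul, Prod.fst_inv, D.q0_fst a hb, eich_conj _ (by simp),
      D.fst_mem_A hx _ ⟨a, hne, Or.inl rfl⟩, D.act_hh_e b h0, hy1]
  rwa [this]

theorem qq_plane {b : Fin n} (hb : (b : ℕ) = (a : ℕ) + 1) {u : Vec n F} (hu : InPlane b u) :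
    D.qq a u ∈ D.B a ⊔ D.A b := by
  by_cases h0 : u = 0
  · rw [h0, qq_zero]; exact one_mem _
  obtain ⟨g, hg, hgu⟩ := exists_move_plane b hu h0
  obtain ⟨x, hx, rfl⟩ := (D.memA b g).1 hg
  rw [D.qq_spec hL hb (D.A_le_Gam (by omega) hx) hgu]
  exact mul_mem (mul_mem (Subgroup.mem_sup_right hx) (Subgroup.mem_sup_left (lift_mem _ _)))
    (inv_mem (Subgroup.mem_sup_right hx))

theorem qq_zz_comm {u : Vec n F} (hu : InTail ((a : ℕ) + 1) u) (t : F) :
    D.qq a u * D.zz a t = D.zz a t * D.qq a u := by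
  by_cases h0 : u = 0
  · rw [h0, qq_zero, one_mul, mul_one]
  obtain ⟨b, hb, x, hx, hxu⟩ := D.exists_rep hL hu h0
  have ha : (a : ℕ) + 1 < n := hb ▸ b.2
  have hne : b ≠ a := fun h => by subst h; omega
  have hxz := D.gam_comm_A hx (D.zz_mem a t)
  have hqz : D.q0 a b * D.zz a t = D.zz a t * D.q0 a b := by
    refine ((D.okAB a a ha).commute (Subgroup.mem_sup_right (D.zz_mem a t))
      (Subgroup.mem_sup_left (lift_mem _ _)) ?_).symm
    rw [show lift (D.B a) (eich (ve a) (ve b) 0) = D.q0 a b from rfl, D.q0_fst a hb]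
    exact commute_eich (by simp) (D.act_zz_e a t)
      (D.fst_mem_A (D.zz_mem a t) _ ⟨b, hne, Or.inl rfl⟩)
  have hxz' : x⁻¹ * D.zz a t = D.zz a t * x⁻¹ := D.gam_comm_A (inv_mem hx) (D.zz_mem a t)
  rw [D.qq_spec hL hb hx hxu, mul_assoc, hxz', ← mul_assoc, mul_assoc x, hqz, ← mul_assoc, hxz]
  group

theorem qq_mul (hF : ∃ c : F, c ≠ 0 ∧ c ≠ 1) {u v : Vec n F}
    (hu : InTail ((a : ℕ) + 1) u) (hv : InTail ((a : ℕ) + 1) v) :
    D.qq a u * D.qq a v = D.qq a (u + v) * D.zz a (om u v) := by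
  have trans_ : ∀ {u v : Vec n F}, InTail ((a : ℕ) + 1) u → InTail ((a : ℕ) + 1) v →
      ∀ {x : Sp n F × H}, x ∈ D.Gam ((a : ℕ) + 1) →
      D.qq a (act x.1 u) * D.qq a (act x.1 v) =
        D.qq a (act x.1 u + act x.1 v) * D.zz a (om (act x.1 u) (act x.1 v)) →
      D.qq a u * D.qq a v = D.qq a (u + v) * D.zz a (om u v) := by
    intro u v hu hv x hx h
    rw [← D.qq_conj hL hu hx, ← D.qq_conj hL hv hx, ← act_add, ← D.qq_conj hL (hu.add hv) hx,
      om_act] at h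
    have hc := D.gam_comm_A (inv_mem hx) (D.zz_mem a (om u v))
    have h' : x * (D.qq a u * D.qq a v) * x⁻¹ =
        x * (D.qq a (u + v) * D.zz a (om u v)) * x⁻¹ := by
      rw [mul_assoc x (D.qq a (u + v) * D.zz a (om u v)), mul_assoc (D.qq a (u + v)), ← hc,
        show x * (D.qq a u * D.qq a v) * x⁻¹ = x * D.qq a u * x⁻¹ * (x * D.qq a v * x⁻¹) by
          group, h]
      group
    exact mul_left_cancel (mul_right_cancel h')
  have plane : ∀ {u v : Vec n F} {b : Fin n}, (b : ℕ) = (a : ℕ) + 1 → InPlane b u →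
      InPlane b v → D.qq a u * D.qq a v = D.qq a (u + v) * D.zz a (om u v) := by
    intro u v b hb hu hv
    have ha : (a : ℕ) + 1 < n := hb ▸ b.2
    have tl : ∀ {w : Vec n F}, InPlane b w → InTail ((a : ℕ) + 1) w := fun hw l hl =>
      hw l (fun h => by subst h; omega)
    have huv : InPlane b (u + v) := fun l hl => by simp [hu l hl, hv l hl]
    refine (D.okAB a b ha).eq (mul_mem (D.qq_plane hL hb hu) (D.qq_plane hL hb hv))
      (mul_mem (D.qq_plane hL hb huv) (Subgroup.mem_sup_left (D.zz_mem_B hL ha _))) ?_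
    have he : ∀ {w : Vec n F}, InPlane b w → om (ve a) w = 0 := fun hw =>
      ((tl hw).om_ve (Nat.lt_succ_self _)).1
    rw [Prod.fst_mul, Prod.fst_mul, D.qq_fst hL (tl hu), D.qq_fst hL (tl hv),
      D.qq_fst hL (tl huv), D.zz_fst, eich_mul (he hu) (he hv),
      eich_mul (he huv) (om_zero_right _)]
    simp
  have hne0 : ∀ {u v : Vec n F}, InTail ((a : ℕ) + 1) u → InTail ((a : ℕ) + 1) v →
      om u v ≠ 0 → D.qq a u * D.qq a v = D.qq a (u + v) * D.zz a (om u v) := by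
    intro u v hu hv huv
    obtain ⟨b, hb, x, hx, rfl⟩ := D.exists_rep hL hu fun h => huv (by rw [h, om_zero_left])
    set v' := act x.1⁻¹ v with hv'
    have hv't : InTail ((a : ℕ) + 1) v' := hv.act (inv_mem (D.fst_mem_tail hx))
    have hbt : InTail ((a : ℕ) + 1) (ve b : Vec n F) := inTail_ve hb.ge
    rw [show v = act x.1 v' by rw [hv', act_act_inv]] at huv ⊢
    rw [om_act] at huv
    set c := v' (Sum.inr b) with hc
    have hc0 : c ≠ 0 := by simpa [hc] using huv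
    set w := v' - v' (Sum.inl b) • ve b - c • vf b with hw
    have hwt : InTail ((a : ℕ) + 1) w :=
      (hv't.sub (hbt.smul _)).sub ((inTail_vf hb.ge).smul _)
    have hwe : om (ve b) (-(c⁻¹ • w)) = 0 := by
      rw [om_neg_right, om_smul_right]; simp [hw, hc]
    have hwf : om w (vf b) = 0 := by
      rw [om_swap]; simp [hw]
    have hwb : om w (ve b) = 0 := by
      rw [om_swap]; simp [hw, hc]
    obtain ⟨y, hy, hy1⟩ := hL.surj (eich (ve b) (-(c⁻¹ • w)) (-(v' (Sum.inl b) / c)))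
      (eich_mem_fixer hwe _ (by
        rintro z ⟨l, hl, rfl | rfl⟩
        · exact ⟨(hbt.om_ve hl).2.2.1, ((hwt.smul _).neg.om_ve hl).2.2.1⟩
        · exact ⟨(hbt.om_ve hl).2.2.2, ((hwt.smul _).neg.om_ve hl).2.2.2⟩))
    have e1 : act (x * y).1 (ve b) = act x.1 (ve b) := by
      rw [Prod.fst_mul, act_mul, hy1, act_eich hwe, om_self, om_neg_left, om_smul_left]
      simp [hwb]
    have e2 : act (x * y).1 (c • vf b) = act x.1 v' := by
      rw [Prod.fst_mul, act_mul, hy1]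
      congr 1
      rw [act_eich hwe, om_smul_right, om_smul_right, om_neg_left, om_smul_left, hwf]
      simp only [om_ve, vf_inr, if_true, mul_zero, neg_zero, zero_smul, add_zero, mul_neg,
        mul_one, smul_neg, neg_smul, smul_smul, neg_neg, mul_inv_cancel₀ hc0, neg_mul,
        div_mul_cancel₀ _ hc0]
      rw [hw]; module
    rw [← e1, ← e2]
    refine trans_ (hbt.act (D.fst_mem_tail (mul_mem hx hy)))
      (((inTail_vf hb.ge).smul c).act (D.fst_mem_tail (mul_mem hx hy)))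
      (inv_mem (mul_mem hx hy)) ?_
    rw [Prod.fst_inv, act_inv_act, act_inv_act]
    exact plane hb (inPlane_ve b) ((planeSpace b).smul_mem c (inPlane_vf b))
  by_cases huv : om u v ≠ 0
  · exact hne0 hu hv huv
  rw [not_not] at huv
  by_cases h0 : u = 0
  · rw [h0, qq_zero, zero_add, one_mul, om_zero_left, D.zz_zero, mul_one]
  obtain ⟨w₀, hw₀t, hw₀⟩ := exists_om_eq_one hu h0
  set v' := v - om v w₀ • u with hv'
  by_cases hv0 : v' = 0
  · rw [hv', sub_eq_zero] at hv0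
    obtain ⟨b, hb, x, hx, rfl⟩ := D.exists_rep hL hu h0
    generalize om v w₀ = s at hv0
    subst hv0
    refine trans_ hu hv (inv_mem hx) ?_
    rw [Prod.fst_inv, act_smul, act_inv_act]
    exact plane hb (inPlane_ve b) ((planeSpace b).smul_mem s (inPlane_ve b))
  obtain ⟨w₁, hw₁t, hw₁⟩ := exists_om_eq_one (hv.sub (hu.smul _)) hv0
  set w₂ := w₁ - om u w₁ • w₀ with hw₂
  have hu2 : om u w₂ = 0 := by rw [hw₂, om_sub_right, om_smul_right, hw₀, mul_one, sub_self]
  have hv2 : om v w₂ = 1 := by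
    rw [hw₂, om_sub_right, om_smul_right]
    rw [om_sub_left, om_smul_left] at hw₁
    linear_combination hw₁
  obtain ⟨c, hc0, hc1⟩ := hF
  set w := w₀ + (-c - om v w₀) • w₂ with hw
  have hwt : InTail ((a : ℕ) + 1) w := hw₀t.add ((hw₁t.sub (hw₀t.smul _)).smul _)
  have hpw : om u w = 1 := by rw [hw, om_add_right, om_smul_right, hw₀, hu2, mul_zero, add_zero]
  have hrw : om v w = -c := by rw [hw, om_add_right, om_smul_right, hv2]; ring
  have e3 : om (v - w) w = -c := by rw [om_sub_left, hrw, om_self, sub_zero]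
  have e4 : om u (v - w) = -1 := by rw [om_sub_right, huv, hpw, zero_sub]
  have e5 : om (u + (v - w)) w = 1 - c := by rw [om_add_left, hpw, e3, sub_eq_add_neg]
  have A1 := hne0 (hv.sub hwt) hwt (by rw [e3]; exact neg_ne_zero.2 hc0)
  have A2 := hne0 hu (hv.sub hwt) (by rw [e4]; exact neg_ne_zero.2 one_ne_zero)
  have A3 := hne0 (hu.add (hv.sub hwt)) hwt (by rw [e5]; exact sub_ne_zero.2 (Ne.symm hc1))
  rw [sub_add_cancel, e3] at A1
  rw [e4] at A2
  rw [add_assoc, sub_add_cancel, e5] at A3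
  have h1 : D.qq a v = D.qq a (v - w) * D.qq a w * D.zz a c := by
    rw [A1, mul_assoc, D.zz_add, neg_add_cancel, D.zz_zero, mul_one]
  rw [huv, D.zz_zero, mul_one, h1, ← mul_assoc, ← mul_assoc, A2,
    mul_assoc (D.qq a (u + (v - w))), ← D.qq_zz_comm hL hwt, ← mul_assoc, A3,
    mul_assoc, mul_assoc, D.zz_add, D.zz_add]
  rw [show (1 - c) + ((-1) + c) = 0 by ring, D.zz_zero, mul_one]

end Amalgam

end Cfsg.Agent.SpAmalgam
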