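import Cfsg.Agent.SpAmalgam.Qroot

/-!
The inductive step: the completion on the planes from `a` on is functional, with the stabiliser of
`e_a` generated by the completion above `a` and the transformations at `e_a`.
-/

set_option autoImplicit false
set_option linter.unusedSectionVars false

namespace Cfsg.Agent.SpAmalgam

open Matrix

variable {F : Type*} [Field F] {n : ℕ} {H : Type*} [Group H]

/-- Shifting `e` past an Eichler transformation at `f`. -/
theorem eich_shift {e f u : Vec n F} (hef : om e f = -1) (heu : om e u = 0) (hfu : om f u = 0)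
    (s : F) :
    eich f u 0 * eich e 0 s = eich e 0 s * eich u 0 s * eich e (s • u) 0 * eich f u 0 := by
  have hue : om u e = 0 := by rw [om_swap, heu, neg_zero]
  have huf : om u f = 0 := by rw [om_swap, hfu, neg_zero]
  have hfe : om f e = 1 := by rw [om_swap, hef, neg_neg]
  have hesu : om e (s • u) = 0 := by rw [om_smul_right, heu, mul_zero]
  have key : ∀ x, act (eich f u 0 * eich e 0 s) x =
      act (eich e 0 s * eich u 0 s * eich e (s • u) 0 * eich f u 0) x := by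
    intro x
    simp only [act_mul, act_eich hfu, act_eich (om_zero_right e), act_eich (om_zero_right u),
      act_eich hesu, om_add_right, om_smul_right, om_smul_left, om_zero_left, om_self, hef, heu,
      hfu, hue, huf, hfe, smul_zero, zero_smul, add_zero, mul_zero, zero_mul]
    module
  exact eq_of_act (fun i => key _) fun i => key _

namespace Amalgam

variable (D : Amalgam n F H) (a : Fin n)

/-- The lift of the Eichler transformation at `e_a`. -/
noncomputable def QQ (u : Vec n F) (t : F) : Sp n F × H := D.qq a u * D.zz a t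

/-- The lift of the Eichler transformation at `f_a`. -/
noncomputable def RR (u : Vec n F) (t : F) : Sp n F × H := D.ww a * D.QQ a u t * (D.ww a)⁻¹

theorem QQ_zero_left (t : F) : D.QQ a 0 t = D.zz a t := by rw [QQ, D.qq_zero, one_mul]

theorem QQ_zero_right (u : Vec n F) : D.QQ a u 0 = D.qq a u := by rw [QQ, D.zz_zero, mul_one]

theorem RR_zero_left (t : F) : D.RR a 0 t = D.yy a t := by
  rw [RR, D.QQ_zero_left, D.ww_conj_zz]

theorem ww_mul_QQ (u : Vec n F) (t : F) : D.ww a * D.QQ a u t = D.RR a u t * D.ww a := by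
  rw [RR, inv_mul_cancel_right]

variable {a}

section calculus

variable (hL : D.Level ((a : ℕ) + 1)) (hF : ∃ c : F, c ≠ 0 ∧ c ≠ 1)
include hL hF

theorem QQ_mul {u v : Vec n F} (hu : InTail ((a : ℕ) + 1) u) (hv : InTail ((a : ℕ) + 1) v)
    (s t : F) : D.QQ a u s * D.QQ a v t = D.QQ a (u + v) (s + t + om u v) := by
  rw [QQ, QQ, QQ]
  calc D.qq a u * D.zz a s * (D.qq a v * D.zz a t)
      = D.qq a u * (D.zz a s * D.qq a v) * D.zz a t := by simp only [mul_assoc]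
    _ = D.qq a u * D.qq a v * (D.zz a s * D.zz a t) := by
        rw [← D.qq_zz_comm hL hv]; simp only [mul_assoc]
    _ = _ := by
        rw [D.qq_mul hL hF hu hv, D.zz_add, mul_assoc, D.zz_add, add_comm (om u v)]

theorem QQ_inv {u : Vec n F} (hu : InTail ((a : ℕ) + 1) u) (t : F) :
    (D.QQ a u t)⁻¹ = D.QQ a (-u) (-t) :=
  inv_eq_of_mul_eq_one_right (by
    rw [D.QQ_mul hL hF hu hu.neg, add_neg_cancel, add_neg_cancel, om_neg_right, om_self, neg_zero,
      add_zero, D.QQ_zero_left, D.zz_zero])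

theorem QQ_fst {u : Vec n F} (hu : InTail ((a : ℕ) + 1) u) (t : F) :
    (D.QQ a u t).1 = eich (ve a) u t := by
  rw [QQ, Prod.fst_mul, D.qq_fst hL hu, D.zz_fst,
    eich_mul (hu.om_ve (Nat.lt_succ_self _)).1 (om_zero_right _)]
  simp

theorem gam_mul_QQ {u : Vec n F} (hu : InTail ((a : ℕ) + 1) u) (t : F) {k : Sp n F × H}
    (hk : k ∈ D.Gam ((a : ℕ) + 1)) : k * D.QQ a u t = D.QQ a (act k.1 u) t * k := by
  rw [QQ, QQ, ← D.qq_conj hL hu hk, mul_assoc (k * D.qq a u * k⁻¹), ← D.gam_comm_A hk (D.zz_mem a t)]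
  group

theorem hh_mul_QQ {u : Vec n F} (hu : InTail ((a : ℕ) + 1) u) (t : F) {c : F} (hc : c ≠ 0) :
    D.hh a c * D.QQ a u t = D.QQ a (c • u) (c ^ 2 * t) * D.hh a c := by
  have hq : D.hh a c * D.qq a u = D.qq a (c • u) * D.hh a c := by
    by_cases h0 : u = 0
    · rw [h0, smul_zero, D.qq_zero, mul_one, one_mul]
    obtain ⟨b, hb, x, hx, hxu⟩ := D.exists_rep hL hu h0
    have ha : (a : ℕ) + 1 < n := hb ▸ b.2
    have hne : b ≠ a := fun h => by subst h; omega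
    have h1 : D.hh a c * D.q0 a b = D.qq a (c • ve b) * D.hh a c := by
      refine (D.okAB a a ha).eq (mul_mem (Subgroup.mem_sup_right (D.hh_mem a c))
        (Subgroup.mem_sup_left (lift_mem _ _)))
        (mul_mem (Subgroup.mem_sup_left (D.qq_line hL hb c))
          (Subgroup.mem_sup_right (D.hh_mem a c))) ?_
      rw [Prod.fst_mul, Prod.fst_mul, D.q0_fst a hb, D.qq_fst hL ((inTail_ve hb.ge).smul c),
        ← mul_inv_eq_iff_eq_mul, eich_conj _ (by simp), D.act_hh_e a hc,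
        D.fst_mem_A (D.hh_mem a c) _ ⟨b, hne, Or.inl rfl⟩, eich_smul (by simp) c]
      simp
    have h2 : D.qq a (c • u) = x * D.qq a (c • ve b) * x⁻¹ := by
      rw [D.qq_conj hL ((inTail_ve hb.ge).smul c) hx, act_smul, hxu]
    have hxh := D.gam_comm_A hx (D.hh_mem a c)
    have hxh' := D.gam_comm_A (inv_mem hx) (D.hh_mem a c)
    rw [D.qq_spec hL hb hx hxu, h2]
    calc D.hh a c * (x * D.q0 a b * x⁻¹) = (D.hh a c * x) * D.q0 a b * x⁻¹ := by group
      _ = x * (D.hh a c * D.q0 a b) * x⁻¹ := by rw [← hxh]; group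
      _ = x * D.qq a (c • ve b) * (D.hh a c * x⁻¹) := by rw [h1]; group
      _ = _ := by rw [← hxh']; group
  rw [QQ, QQ, ← mul_assoc, hq, mul_assoc, D.hh_mul_zz a hc, ← mul_assoc]

theorem RR_mul {u v : Vec n F} (hu : InTail ((a : ℕ) + 1) u) (hv : InTail ((a : ℕ) + 1) v)
    (s t : F) : D.RR a u s * D.RR a v t = D.RR a (u + v) (s + t + om u v) := by
  rw [RR, RR, RR, ← D.QQ_mul hL hF hu hv]
  group

theorem gam_mul_RR {u : Vec n F} (hu : InTail ((a : ℕ) + 1) u) (t : F) {k : Sp n F × H}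
    (hk : k ∈ D.Gam ((a : ℕ) + 1)) : k * D.RR a u t = D.RR a (act k.1 u) t * k := by
  have hw := D.gam_comm_A hk (D.ww_mem a)
  have hw' := D.gam_comm_A hk (inv_mem (D.ww_mem a))
  rw [RR, RR]
  calc k * (D.ww a * D.QQ a u t * (D.ww a)⁻¹) = (k * D.ww a) * D.QQ a u t * (D.ww a)⁻¹ := by group
    _ = D.ww a * (k * D.QQ a u t) * (D.ww a)⁻¹ := by rw [hw]; group
    _ = D.ww a * D.QQ a (act k.1 u) t * (k * (D.ww a)⁻¹) := by
        rw [D.gam_mul_QQ hL hF hu t hk]; group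
    _ = _ := by rw [hw']; group

theorem hh_mul_RR {u : Vec n F} (hu : InTail ((a : ℕ) + 1) u) (t : F) {c : F} (hc : c ≠ 0) :
    D.hh a c * D.RR a u t = D.RR a (c⁻¹ • u) (c⁻¹ ^ 2 * t) * D.hh a c := by
  have h1 := D.hh_mul_ww a hc
  have h2 : D.hh a c⁻¹ * (D.ww a)⁻¹ = (D.ww a)⁻¹ * D.hh a c := by
    rw [eq_inv_mul_iff_mul_eq, ← mul_assoc, ← h1, mul_inv_cancel_right]
  rw [RR, RR]
  calc D.hh a c * (D.ww a * D.QQ a u t * (D.ww a)⁻¹)
      = D.ww a * (D.hh a c⁻¹ * D.QQ a u t) * (D.ww a)⁻¹ := by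
        rw [← mul_assoc, ← mul_assoc, h1]; group
    _ = D.ww a * D.QQ a (c⁻¹ • u) (c⁻¹ ^ 2 * t) * (D.hh a c⁻¹ * (D.ww a)⁻¹) := by
        rw [D.hh_mul_QQ hL hF hu t (inv_ne_zero hc)]; group
    _ = _ := by rw [h2]; group

theorem ww_mul_RR {u : Vec n F} (hu : InTail ((a : ℕ) + 1) u) (t : F) :
    D.ww a * D.RR a u t = D.QQ a (-u) t * D.ww a := by
  rw [RR, ← mul_assoc, ← mul_assoc, D.ww_mul_ww,
    D.hh_mul_QQ hL hF hu t (neg_ne_zero.2 one_ne_zero), ← D.ww_mul_ww]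
  simp only [neg_smul, one_smul, neg_one_sq, one_mul]
  group

theorem RR_fst {u : Vec n F} (hu : InTail ((a : ℕ) + 1) u) (t : F) :
    (D.RR a u t).1 = eich (vf a) u t := by
  rw [RR, Prod.fst_mul, Prod.fst_mul, Prod.fst_inv, D.QQ_fst hL hF hu,
    eich_conj _ (hu.om_ve (Nat.lt_succ_self _)).1, D.act_ww_e, D.act_A_tail (D.ww_mem a) hu]

/-- The lift of `x_{2u}(s)`. -/
theorem lift_shift_mem {u : Vec n F} (hu : InTail ((a : ℕ) + 1) u) (s : F) :
    ∃ k ∈ D.Gam ((a : ℕ) + 1), k.1 = eich u 0 s :=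
  hL.surj _ (eich_mem_fixer (om_zero_right _) _ (by
    rintro v ⟨l, hl, rfl | rfl⟩
    · exact ⟨(hu.om_ve hl).2.2.1, om_zero_left _⟩
    · exact ⟨(hu.om_ve hl).2.2.2, om_zero_left _⟩))

theorem swapR {u : Vec n F} (hu : InTail ((a : ℕ) + 1) u) (s : F) :
    ∃ k ∈ D.Gam ((a : ℕ) + 1),
      D.RR a u 0 * D.zz a s = D.zz a s * k * D.qq a (s • u) * D.RR a u 0 := by
  obtain ⟨k, hk, hk1⟩ := D.lift_shift_mem hL hF hu s
  refine ⟨k, hk, ?_⟩
  have key : ∀ {b : Fin n}, (b : ℕ) = (a : ℕ) + 1 → ∀ k ∈ D.Gam ((a : ℕ) + 1),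
      k.1 = eich (ve b) 0 s →
      D.RR a (ve b) 0 * D.zz a s = D.zz a s * k * D.qq a (s • ve b) * D.RR a (ve b) 0 := by
    intro b hb k hk hk1
    have ha : (a : ℕ) + 1 < n := hb ▸ b.2
    have hkA : k = D.zz b s := hL.fn.eq hk (D.A_le_Gam hb.ge (D.zz_mem b s)) (by rw [hk1, D.zz_fst])
    obtain ⟨y, hy, hy1⟩ := (D.memB a ha (eich (ve b) 0 s)).1 (eich_mem_fixer (om_zero_right _) _ (by
      rintro v (⟨l, rfl⟩ | ⟨l, h1, h2, rfl⟩)
      · simp
      · simp [Fin.ne_of_val_ne (show (l : ℕ) ≠ b by omega),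
          Ne.symm (Fin.ne_of_val_ne (show (l : ℕ) ≠ b by omega))]))
    have hkB : k ∈ D.B a := by
      have : y = k := (D.okAB a b ha).eq (Subgroup.mem_sup_left hy)
        (Subgroup.mem_sup_right (hkA ▸ D.zz_mem b s)) (by rw [hy1, hk1])
      exact this ▸ hy
    have hR : D.RR a (ve b) 0 ∈ D.B a ⊔ D.A a := by
      have h1 := D.qq_line hL hb 1
      rw [one_smul] at h1
      rw [RR, D.QQ_zero_right]
      exact mul_mem (mul_mem (Subgroup.mem_sup_right (D.ww_mem a)) (Subgroup.mem_sup_left h1))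
        (inv_mem (Subgroup.mem_sup_right (D.ww_mem a)))
    refine (D.okAB a a ha).eq (mul_mem hR (Subgroup.mem_sup_right (D.zz_mem a s)))
      (mul_mem (mul_mem (mul_mem (Subgroup.mem_sup_right (D.zz_mem a s))
        (Subgroup.mem_sup_left hkB)) (Subgroup.mem_sup_left (D.qq_line hL hb s))) hR) ?_
    have hbt : InTail ((a : ℕ) + 1) (ve b : Vec n F) := inTail_ve hb.ge
    simp only [Prod.fst_mul]
    rw [D.RR_fst hL hF hbt, D.zz_fst, hk1, D.qq_fst hL (hbt.smul s)]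
    exact eich_shift (by simp) (hbt.om_ve (Nat.lt_succ_self _)).1
      (hbt.om_ve (Nat.lt_succ_self _)).2.1 s
  by_cases h0 : u = 0
  · subst h0
    have h1 : k = 1 := by
      refine hL.fn _ hk ?_
      rw [hk1]
      refine eq_of_act (fun i => ?_) (fun i => ?_) <;> simp [act_eich (om_zero_right (0 : Vec n F))]
    rw [D.RR_zero_left, smul_zero, D.qq_zero, h1, mul_one, mul_one,
      show D.yy a (0 : F) = 1 from D.okA a _ (D.yy_mem a 0) (by rw [D.yy_fst, eich_zero]), one_mul,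
      mul_one]
  obtain ⟨b, hb, x, hx, hxu⟩ := D.exists_rep hL hu h0
  have hbt : InTail ((a : ℕ) + 1) (ve b : Vec n F) := inTail_ve hb.ge
  have h := key hb (x⁻¹ * k * x) (mul_mem (mul_mem (inv_mem hx) hk) hx) (by
    rw [Prod.fst_mul, Prod.fst_mul, Prod.fst_inv, hk1]
    have e := eich_conj x.1⁻¹ (om_zero_right u) s
    rw [inv_inv, act_zero, show act x.1⁻¹ u = ve b by rw [← hxu, act_inv_act]] at e
    exact e)
  have hR : x * D.RR a (ve b) 0 * x⁻¹ = D.RR a u 0 := by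
    rw [D.gam_mul_RR hL hF hbt 0 hx, hxu, mul_inv_cancel_right]
  have hq : x * D.qq a (s • ve b) * x⁻¹ = D.qq a (s • u) := by
    rw [D.qq_conj hL (hbt.smul s) hx, act_smul, hxu]
  have hz := D.gam_comm_A hx (D.zz_mem a s)
  have hz' := D.gam_comm_A (inv_mem hx) (D.zz_mem a s)
  rw [← hR, ← hq]
  calc x * D.RR a (ve b) 0 * x⁻¹ * D.zz a s = x * D.RR a (ve b) 0 * (x⁻¹ * D.zz a s) := by group
    _ = x * (D.RR a (ve b) 0 * D.zz a s) * x⁻¹ := by rw [hz']; group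
    _ = (x * D.zz a s) * (x⁻¹ * k * x) * D.qq a (s • ve b) * D.RR a (ve b) 0 * x⁻¹ := by
        rw [h]; group
    _ = _ := by rw [hz]; group

theorem swapY {u : Vec n F} (hu : InTail ((a : ℕ) + 1) u) (s : F) :
    ∃ k ∈ D.Gam ((a : ℕ) + 1),
      D.qq a u * D.yy a s = D.yy a s * k * D.RR a (-(s • u)) 0 * D.qq a u := by
  obtain ⟨k, hk, h⟩ := D.swapR hL hF hu.neg s
  refine ⟨k, hk, ?_⟩
  have h1 := congrArg (fun z => D.ww a * z * (D.ww a)⁻¹) h
  have hwk := D.gam_comm_A hk (D.ww_mem a)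
  have e1 : D.ww a * D.RR a (-u) 0 = D.qq a u * D.ww a := by
    rw [D.ww_mul_RR hL hF hu.neg, neg_neg, D.QQ_zero_right]
  have e2 : D.ww a * D.qq a (s • -u) * (D.ww a)⁻¹ = D.RR a (-(s • u)) 0 := by
    rw [smul_neg, RR, D.QQ_zero_right]
  rw [← D.ww_conj_zz]
  calc D.qq a u * (D.ww a * D.zz a s * (D.ww a)⁻¹)
      = D.ww a * (D.RR a (-u) 0 * D.zz a s) * (D.ww a)⁻¹ := by
        rw [← mul_assoc, ← mul_assoc, ← e1]; group
    _ = D.ww a * D.zz a s * ((D.ww a)⁻¹ * (D.ww a * k)) * D.qq a (s • -u) *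
          ((D.ww a)⁻¹ * (D.ww a * D.RR a (-u) 0)) * (D.ww a)⁻¹ := by rw [h]; group
    _ = _ := by rw [← hwk, e1, ← e2]; group

end calculus

/-- Membership in the stabiliser of the line of `e_a`. -/
def InBg (a : Fin n) (x : Sp n F × H) : Prop :=
  ∃ k ∈ D.Gam ((a : ℕ) + 1), ∃ u, InTail ((a : ℕ) + 1) u ∧ ∃ t c : F, c ≠ 0 ∧
    x = k * D.QQ a u t * D.hh a c

/-- The lift of the stabiliser of the line of `e_a`. -/
def borel (hL : D.Level ((a : ℕ) + 1)) (hF : ∃ c : F, c ≠ 0 ∧ c ≠ 1) :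
    Subgroup (Sp n F × H) where
  carrier := {x | D.InBg a x}
  one_mem' := ⟨1, one_mem _, 0, inTail_bot, 0, 1, one_ne_zero, by
    rw [D.hh_one, D.QQ_zero_left, D.zz_zero, mul_one, mul_one]⟩
  mul_mem' := by
    rintro _ _ ⟨k, hk, u, hu, t, c, hc, rfl⟩ ⟨k', hk', v, hv, s, d, hd, rfl⟩
    have hk'u : InTail ((a : ℕ) + 1) (act k'.1⁻¹ u) := hu.act (inv_mem (D.fst_mem_tail hk'))
    refine ⟨k * k', mul_mem hk hk', _, hk'u.add (hv.smul c),
      t + c ^ 2 * s + om (act k'.1⁻¹ u) (c • v), c * d, mul_ne_zero hc hd, ?_⟩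
    rw [← D.QQ_mul hL hF hk'u (hv.smul c), ← D.hh_mul a hc hd]
    have h1 := D.gam_comm_A hk' (D.hh_mem a c)
    have h2 := D.gam_mul_QQ hL hF hk'u t hk'
    rw [act_act_inv] at h2
    have h3 := D.hh_mul_QQ hL hF hv s hc
    calc k * D.QQ a u t * D.hh a c * (k' * D.QQ a v s * D.hh a d)
        = k * D.QQ a u t * (D.hh a c * k') * D.QQ a v s * D.hh a d := by group
      _ = k * (D.QQ a u t * k') * (D.hh a c * D.QQ a v s) * D.hh a d := by rw [← h1]; group
      _ = _ := by rw [← h2, h3]; group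
  inv_mem' := by
    rintro _ ⟨k, hk, u, hu, t, c, hc, rfl⟩
    refine ⟨k⁻¹, inv_mem hk, act k.1 ((c⁻¹) • -u), ((hu.neg).smul _).act (D.fst_mem_tail hk),
      c⁻¹ ^ 2 * -t, c⁻¹, inv_ne_zero hc, ?_⟩
    have h1 := D.gam_comm_A (inv_mem hk) (D.hh_mem a c⁻¹)
    have h2 := D.gam_mul_QQ hL hF ((hu.neg).smul c⁻¹) (c⁻¹ ^ 2 * -t) hk
    have h3 : D.QQ a (c⁻¹ • -u) (c⁻¹ ^ 2 * -t) * k⁻¹ =
        k⁻¹ * D.QQ a (act k.1 (c⁻¹ • -u)) (c⁻¹ ^ 2 * -t) := by
      rw [eq_inv_mul_iff_mul_eq, ← mul_assoc, h2, mul_inv_cancel_right]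
    rw [_root_.mul_inv_rev, _root_.mul_inv_rev, D.QQ_inv hL hF hu, D.hh_inv a hc, ← mul_assoc,
      D.hh_mul_QQ hL hF hu.neg _ (inv_ne_zero hc), mul_assoc, ← h1, ← mul_assoc, h3]

section borelMem

variable (hL : D.Level ((a : ℕ) + 1)) (hF : ∃ c : F, c ≠ 0 ∧ c ≠ 1)
include hL hF

theorem gam_mem_borel {k : Sp n F × H} (hk : k ∈ D.Gam ((a : ℕ) + 1)) : k ∈ D.borel hL hF :=
  ⟨k, hk, 0, inTail_bot, 0, 1, one_ne_zero, by
    rw [D.hh_one, D.QQ_zero_left, D.zz_zero, mul_one, mul_one]⟩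

theorem QQ_mem_borel {u : Vec n F} (hu : InTail ((a : ℕ) + 1) u) (t : F) :
    D.QQ a u t ∈ D.borel hL hF :=
  ⟨1, one_mem _, u, hu, t, 1, one_ne_zero, by rw [D.hh_one, one_mul, mul_one]⟩

theorem zz_mem_borel (t : F) : D.zz a t ∈ D.borel hL hF := by
  rw [← D.QQ_zero_left]; exact D.QQ_mem_borel hL hF inTail_bot t

theorem qq_mem_borel {u : Vec n F} (hu : InTail ((a : ℕ) + 1) u) : D.qq a u ∈ D.borel hL hF := by
  rw [← D.QQ_zero_right]; exact D.QQ_mem_borel hL hF hu 0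

theorem hh_mem_borel {c : F} (hc : c ≠ 0) : D.hh a c ∈ D.borel hL hF :=
  ⟨1, one_mem _, 0, inTail_bot, 0, c, hc, by rw [D.QQ_zero_left, D.zz_zero, mul_one, one_mul]⟩

end borelMem

/-- The union of the double cosets. -/
def InU (hL : D.Level ((a : ℕ) + 1)) (hF : ∃ c : F, c ≠ 0 ∧ c ≠ 1) (x : Sp n F × H) : Prop :=
  (∃ b₁ ∈ D.borel hL hF, ∃ b₂ ∈ D.borel hL hF, ∃ v, InTail ((a : ℕ) + 1) v ∧
      x = b₁ * D.RR a v 0 * b₂) ∨
    ∃ b₁ ∈ D.borel hL hF, ∃ b₂ ∈ D.borel hL hF, x = b₁ * D.ww a * b₂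

variable {hL : D.Level ((a : ℕ) + 1)} {hF : ∃ c : F, c ≠ 0 ∧ c ≠ 1}

theorem InU.mul {x b b' : Sp n F × H} (h : D.InU hL hF x) (hb : b ∈ D.borel hL hF)
    (hb' : b' ∈ D.borel hL hF) : D.InU hL hF (b * x * b') := by
  rcases h with ⟨b₁, h₁, b₂, h₂, v, hv, rfl⟩ | ⟨b₁, h₁, b₂, h₂, rfl⟩
  · exact Or.inl ⟨b * b₁, mul_mem hb h₁, b₂ * b', mul_mem h₂ hb', v, hv, by group⟩
  · exact Or.inr ⟨b * b₁, mul_mem hb h₁, b₂ * b', mul_mem h₂ hb', by group⟩

theorem RR_inU {u : Vec n F} (hu : InTail ((a : ℕ) + 1) u) (t : F) :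
    D.InU hL hF (D.RR a u t) := by
  by_cases ht : t = 0
  · exact Or.inl ⟨1, one_mem _, 1, one_mem _, u, hu, by rw [ht, one_mul, mul_one]⟩
  set c := t⁻¹ with hc
  have hc0 : c ≠ 0 := inv_ne_zero ht
  have hsplit : D.RR a u t = D.RR a u 0 * D.yy a t := by
    rw [← D.RR_zero_left, D.RR_mul hL hF hu inTail_bot, add_zero, zero_add, om_zero_right,
      add_zero]
  have hy : D.yy a t = D.zz a (-c) * D.hh a c * D.ww a * D.zz a (-c) := by
    rw [hh, ← D.zz_inv, hc, inv_inv]; group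
  obtain ⟨k, hk, hs⟩ := D.swapR hL hF hu (-c)
  have hcu := hu.smul c
  have h1 : D.RR a u 0 * D.hh a c = D.hh a c * D.RR a (c • u) 0 := by
    rw [D.hh_mul_RR hL hF hcu 0 hc0, smul_smul, inv_mul_cancel₀ hc0, one_smul, mul_zero]
  have h2 : D.RR a (c • u) 0 * D.ww a = D.ww a * D.qq a (c • u) := by
    rw [← D.ww_mul_QQ, D.QQ_zero_right]
  have e : D.RR a u t = D.zz a (-c) * k * D.qq a ((-c) • u) * D.hh a c * D.ww a *
      (D.qq a (c • u) * D.zz a (-c)) := by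
    calc D.RR a u t = (D.RR a u 0 * D.zz a (-c)) * D.hh a c * D.ww a * D.zz a (-c) := by
          rw [hsplit, hy]; group
      _ = D.zz a (-c) * k * D.qq a ((-c) • u) * (D.RR a u 0 * D.hh a c) * D.ww a *
            D.zz a (-c) := by rw [hs]; group
      _ = D.zz a (-c) * k * D.qq a ((-c) • u) * D.hh a c * (D.RR a (c • u) 0 * D.ww a) *
            D.zz a (-c) := by rw [h1]; group
      _ = _ := by rw [h2]; group
  exact Or.inr ⟨_, mul_mem (mul_mem (mul_mem (D.zz_mem_borel hL hF _) (D.gam_mem_borel hL hF hk))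
    (D.qq_mem_borel hL hF (hu.smul _))) (D.hh_mem_borel hL hF hc0), _,
    mul_mem (D.qq_mem_borel hL hF hcu) (D.zz_mem_borel hL hF _), e⟩

theorem ww_mul_inU {x : Sp n F × H} (hx : D.InU hL hF x) : D.InU hL hF (D.ww a * x) := by
  have hpre : ∀ k ∈ D.Gam ((a : ℕ) + 1), ∀ u t (c : F), c ≠ 0 →
      D.ww a * (k * D.QQ a u t * D.hh a c) = k * D.RR a u t * D.hh a c⁻¹ * D.ww a := by
    intro k hk u t c hc
    have h1 := D.gam_comm_A hk (D.ww_mem a)
    have h2 := D.hh_mul_ww a (inv_ne_zero hc)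
    rw [inv_inv] at h2
    calc D.ww a * (k * D.QQ a u t * D.hh a c) = D.ww a * k * D.QQ a u t * D.hh a c := by group
      _ = k * (D.ww a * D.QQ a u t) * D.hh a c := by rw [← h1]; group
      _ = k * D.RR a u t * (D.ww a * D.hh a c) := by rw [D.ww_mul_QQ]; group
      _ = _ := by rw [← h2]; group
  rcases hx with ⟨b₁, h₁, b₂, h₂, v, hv, rfl⟩ | ⟨b₁, h₁, b₂, h₂, rfl⟩
  · obtain ⟨k, hk, u, hu, t, c, hc, rfl⟩ := h₁
    -- the core of the computation
    have core : ∀ u v : Vec n F, InTail ((a : ℕ) + 1) u → InTail ((a : ℕ) + 1) v →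
        D.InU hL hF (D.ww a * (D.qq a u * D.RR a v 0)) := by
      intro u v hu hv
      obtain ⟨k₁, hk₁, e₁⟩ := D.swapR hL hF hu 1
      obtain ⟨k₂, hk₂, e₂⟩ := D.swapY hL hF hv.neg 1
      simp only [one_smul, neg_neg] at e₁ e₂
      have hk₂u : InTail ((a : ℕ) + 1) (act k₂.1⁻¹ u) := hu.act (inv_mem (D.fst_mem_tail hk₂))
      have e3 : D.RR a u 1 * k₂ = k₂ * D.RR a (act k₂.1⁻¹ u) 1 := by
        rw [D.gam_mul_RR hL hF hk₂u 1 hk₂, act_act_inv]
      have hz := D.qq_zz_comm hL hv.neg (1 : F)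
      have e0 : D.ww a * (D.qq a u * D.RR a v 0) =
          D.RR a u 0 * D.qq a (-v) * (D.zz a 1 * D.yy a 1 * D.zz a 1) := by
        rw [← mul_assoc, show D.zz a 1 * D.yy a 1 * D.zz a 1 = D.ww a from rfl,
          ← D.QQ_zero_right a u, D.ww_mul_QQ, mul_assoc, D.ww_mul_RR hL hF hv, D.QQ_zero_right,
          mul_assoc]
      have e : D.ww a * (D.qq a u * D.RR a v 0) = D.zz a 1 * k₁ * D.qq a u * k₂ *
          D.RR a (act k₂.1⁻¹ u + v) (1 + om (act k₂.1⁻¹ u) v) * (D.qq a (-v) * D.zz a 1) := by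
        calc D.ww a * (D.qq a u * D.RR a v 0)
            = D.RR a u 0 * (D.qq a (-v) * D.zz a 1) * D.yy a 1 * D.zz a 1 := by rw [e0]; group
          _ = (D.RR a u 0 * D.zz a 1) * (D.qq a (-v) * D.yy a 1) * D.zz a 1 := by
              rw [hz]; group
          _ = D.zz a 1 * k₁ * D.qq a u * ((D.RR a u 0 * D.RR a 0 1) * k₂) * D.RR a v 0 *
                D.qq a (-v) * D.zz a 1 := by rw [e₁, e₂, D.RR_zero_left]; group
          _ = D.zz a 1 * k₁ * D.qq a u * (D.RR a u 1 * k₂) * D.RR a v 0 *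
                D.qq a (-v) * D.zz a 1 := by
              rw [D.RR_mul hL hF hu inTail_bot, add_zero, zero_add, om_zero_right, add_zero]
          _ = D.zz a 1 * k₁ * D.qq a u * k₂ * (D.RR a (act k₂.1⁻¹ u) 1 * D.RR a v 0) *
                (D.qq a (-v) * D.zz a 1) := by rw [e3]; group
          _ = _ := by rw [D.RR_mul hL hF hk₂u hv, add_zero]
      rw [e]
      exact InU.mul D (D.RR_inU (hk₂u.add hv) _)
        (mul_mem (mul_mem (mul_mem (D.zz_mem_borel hL hF _) (D.gam_mem_borel hL hF hk₁))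
          (D.qq_mem_borel hL hF hu)) (D.gam_mem_borel hL hF hk₂))
        (mul_mem (D.qq_mem_borel hL hF hv.neg) (D.zz_mem_borel hL hF _))
    -- moving the torus and the central element to the right
    set v' := c⁻¹ • v with hv'
    have hv't : InTail ((a : ℕ) + 1) v' := hv.smul _
    obtain ⟨k', hk', e'⟩ := D.swapR hL hF hv't.neg (-t)
    have e'' : D.zz a t * D.RR a v' 0 =
        D.RR a v' 0 * (D.qq a ((-t) • -v'))⁻¹ * k'⁻¹ * D.zz a t := by
      have hRi : (D.RR a (-v') 0)⁻¹ = D.RR a v' 0 := inv_eq_of_mul_eq_one_right (by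
        rw [D.RR_mul hL hF hv't.neg hv't, neg_add_cancel, add_zero, zero_add, om_neg_left,
          om_self, neg_zero, D.RR_zero_left]
        exact D.okA a _ (D.yy_mem a 0) (by rw [D.yy_fst, eich_zero]))
      have := congrArg (fun z => z⁻¹) e'
      simp only [_root_.mul_inv_rev, hRi, D.zz_inv, neg_neg] at this
      rw [this]; group
    have e : D.ww a * (k * D.QQ a u t * D.hh a c * D.RR a v 0 * b₂) =
        k * (D.ww a * (D.qq a u * D.RR a v' 0)) *
          ((D.qq a ((-t) • -v'))⁻¹ * k'⁻¹ * D.zz a t * D.hh a c * b₂) := by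
      calc D.ww a * (k * D.QQ a u t * D.hh a c * D.RR a v 0 * b₂)
          = D.ww a * k * D.qq a u * D.zz a t * (D.hh a c * D.RR a v 0) * b₂ := by
            rw [QQ]; group
        _ = D.ww a * k * D.qq a u * (D.zz a t * D.RR a v' 0) * D.hh a c * b₂ := by
            rw [D.hh_mul_RR hL hF hv 0 hc, mul_zero, ← hv']; group
        _ = (D.ww a * k) * D.qq a u * D.RR a v' 0 *
              ((D.qq a ((-t) • -v'))⁻¹ * k'⁻¹ * D.zz a t * D.hh a c * b₂) := by rw [e'']; group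
        _ = _ := by rw [← D.gam_comm_A hk (D.ww_mem a)]; group
    rw [e]
    exact InU.mul D (core u v' hu hv't) (D.gam_mem_borel hL hF hk)
      (mul_mem (mul_mem (mul_mem (mul_mem (inv_mem (D.qq_mem_borel hL hF (hv't.neg.smul _)))
        (inv_mem (D.gam_mem_borel hL hF hk'))) (D.zz_mem_borel hL hF t))
        (D.hh_mem_borel hL hF hc)) h₂)
  · obtain ⟨k, hk, u, hu, t, c, hc, rfl⟩ := h₁
    have e : D.ww a * (k * D.QQ a u t * D.hh a c * D.ww a * b₂) =
        k * D.RR a u t * (D.hh a c⁻¹ * D.hh a (-1) * b₂) := by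
      rw [← D.ww_mul_ww]
      calc D.ww a * (k * D.QQ a u t * D.hh a c * D.ww a * b₂)
          = (D.ww a * (k * D.QQ a u t * D.hh a c)) * D.ww a * b₂ := by group
        _ = _ := by rw [hpre k hk u t c hc]; group
    rw [e]
    exact InU.mul D (D.RR_inU hu t) (D.gam_mem_borel hL hF hk)
      (mul_mem (mul_mem (D.hh_mem_borel hL hF (inv_ne_zero hc))
        (D.hh_mem_borel hL hF (neg_ne_zero.2 one_ne_zero))) h₂)

end Amalgam

end Cfsg.Agent.SpAmalgam
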